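/- Groups in which abelian subgroups of the same order are conjugate: passing to quotients. -/
import Cfsg.Agent.H98.Sylow
import Cfsg.Agent.H2.MinNormal
import Cfsg.Agent.S3908
import Cfsg.Agent.S3909

set_option autoImplicit false

open Subgroup H98 Cfsg
open scoped commutatorElement

namespace H18.BG

universe u

/-- abelian subgroups of the same order are conjugate -/
def BP (G : Type*) [Group G] : Prop := ∀ A B : Subgroup G, IsMulCommutative A → IsMulCommutative B →
  Nat.card A = Nat.card B → ∃ g : G, B = A.map (MulAut.conj g).toMonoidHom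

variable {G H : Type*} [Group G] [Group H] [Finite G] {p : ℕ} [hp : Fact p.Prime]

theorem comm_of_forall {A : Subgroup G} (h : ∀ x ∈ A, ∀ y ∈ A, x * y = y * x) :
    IsMulCommutative A := ⟨⟨fun x y => Subtype.ext (h x x.2 y y.2)⟩⟩

theorem dec {N X : Subgroup G} [N.Normal] (hN : IsPGroup p N) (hNX : N ≤ X) (hc : ⁅X, X⁆ ≤ N) :
    ∃ P Q : Subgroup G, N ≤ P ∧ IsPGroup p P ∧ P ⊔ Q = X ∧ IsMulCommutative Q ∧
      (Nat.card Q).Coprime p ∧ Nat.card P * Nat.card Q = Nat.card X := by
  obtain ⟨T, hT, hNT⟩ := exists_isSyl_le hN hNX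
  obtain ⟨S, hS⟩ := hT.exists_sylow
  have hn : (S : Subgroup X).Normal := ⟨fun x hx g => by
    rw [hS] at hx ⊢
    have : (g : G) * x * (g : G)⁻¹ * (x : G)⁻¹ ∈ T := hNT (hc (commutator_mem_commutator g.2 x.2))
    have := T.mul_mem this hx
    simpa [mem_subgroupOf] using this⟩
  obtain ⟨K, hK⟩ := Subgroup.exists_right_complement'_of_coprime S.card_coprime_index
  have eT : (S : Subgroup X).map X.subtype = T := by rw [hS, subgroupOf_map_subtype, inf_eq_left.2 hT.le]
  have cop : (Nat.card (K.map X.subtype)).Coprime p := by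
    rw [card_subtype, ← hK.symm.index_eq_card]
    exact ((Nat.Prime.coprime_iff_not_dvd hp.out).2 S.not_dvd_index).symm
  refine ⟨T, K.map X.subtype, hNT, hT.isPGroup, ?_, comm_of_forall fun x hx y hy => ?_, cop, ?_⟩
  · rw [← eT, ← Subgroup.map_sup, hK.sup_eq_top, ← MonoidHom.range_eq_map, range_subtype]
  · have h1 : ⁅x, y⁆ ∈ N := hc (commutator_mem_commutator (map_subtype_le K hx) (map_subtype_le K hy))
    have h2 : ⁅x, y⁆ ∈ K.map X.subtype := by
      rw [commutatorElement_def]
      exact mul_mem (mul_mem (mul_mem hx hy) (inv_mem hx)) (inv_mem hy)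
    have h3 : Disjoint N (K.map X.subtype) := by
      obtain ⟨k, hk⟩ := IsPGroup.iff_card.1 hN
      exact disjoint_of_coprime_natCard (by rw [hk]; exact (cop.symm.pow_left k))
    exact commutatorElement_eq_one_iff_mul_comm.1 (disjoint_def.1 h3 h1 h2)
  · rw [← eT, card_subtype, card_subtype, hK.card_mul]

theorem cent_of_central {N P Q : Subgroup G} (hN : IsPGroup p N) (hZ : N ≤ center G)
    (hQ : (Nat.card Q).Coprime p) (hc : ⁅Q, P⁆ ≤ N) : P ≤ centralizer (Q : Set G) := by
  intro x hx q hq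
  have h1 : ⁅q, x⁆ ∈ N := hc (commutator_mem_commutator hq hx)
  have h2 : ∀ k : ℕ, q ^ k * x = ⁅q, x⁆ ^ k * x * q ^ k := fun k => by
    induction k with
    | zero => simp
    | succ k ih =>
      have e : q * x = ⁅q, x⁆ * x * q := by rw [commutatorElement_def]; group
      have z := mem_center_iff.1 (pow_mem (hZ h1) k) q
      rw [pow_succ' q, mul_assoc, ih, ← mul_assoc, ← mul_assoc, z, mul_assoc _ q x, e, pow_succ]
      simp only [mul_assoc]
  have h3 := h2 (Nat.card Q)
  have h4 : q ^ Nat.card Q = 1 := by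
    have := pow_card_eq_one' (G := Q) (x := ⟨q, hq⟩)
    exact congrArg Subtype.val this
  rw [h4, one_mul, mul_one, eq_comm, mul_eq_right] at h3
  obtain ⟨k, hk⟩ := hN ⟨_, h1⟩
  have h5 : ⁅q, x⁆ ^ p ^ k = 1 := congrArg Subtype.val hk
  have h6 := Nat.dvd_gcd (orderOf_dvd_of_pow_eq_one h3) (orderOf_dvd_of_pow_eq_one h5)
  rw [(hQ.pow_right k), Nat.dvd_one, orderOf_eq_one_iff] at h6
  exact commutatorElement_eq_one_iff_mul_comm.1 h6

theorem step (hB : BP G) (f : G →* H) (hf : Function.Surjective f) (hN : IsPGroup p f.ker)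
    (hR : ∀ R : Subgroup G, IsPGroup p R → f.ker < R →
      IsCyclic R ∨ (f.ker ≤ center G ∧ IsSyl p R ⊤)) : BP H := by
  intro A B hA hB' hc
  have cm : ∀ A : Subgroup H, IsMulCommutative A → ⁅A.comap f, A.comap f⁆ ≤ f.ker := fun A hA =>
    commutator_le.2 fun x hx y hy => by
      rw [MonoidHom.mem_ker, map_commutatorElement, commutatorElement_eq_one_iff_mul_comm]
      exact congrArg Subtype.val (hA.is_comm.comm (⟨f x, hx⟩ : A) ⟨f y, hy⟩)
  have cd : Nat.card (A.comap f) = Nat.card (B.comap f) := by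
    have : Finite H := Finite.of_surjective f hf
    have e1 := (A.comap f).card_mul_index
    have e2 := (B.comap f).card_mul_index
    have e3 := A.card_mul_index
    have e4 := B.card_mul_index
    rw [index_comap_of_surjective _ hf] at e1 e2
    have e5 : A.index = B.index := by
      rw [hc, ← e4] at e3
      exact Nat.eq_of_mul_eq_mul_left Nat.card_pos e3
    rw [e5, ← e2] at e1
    exact Nat.eq_of_mul_eq_mul_right (Nat.pos_of_ne_zero index_ne_zero_of_finite) e1
  obtain ⟨P, Q, a1, a2, a3, a4, a5, a6⟩ := dec hN (ker_le_comap f A) (cm A hA)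
  obtain ⟨P', Q', b1, b2, b3, b4, b5, b6⟩ := dec hN (ker_le_comap f B) (cm B hB')
  suffices h : ∃ g, B.comap f = cj g (A.comap f) by
    obtain ⟨g, hg⟩ := h
    refine ⟨f g, ?_⟩
    have := congrArg (Subgroup.map f) hg
    rwa [map_cj, map_comap_eq_self_of_surjective hf, map_comap_eq_self_of_surjective hf] at this
  have eP : Nat.card P = Nat.card P' := by
    obtain ⟨k, hk⟩ := IsPGroup.iff_card.1 a2
    obtain ⟨l, hl⟩ := IsPGroup.iff_card.1 b2
    have e := a6.trans (cd.trans b6.symm)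
    refine Nat.dvd_antisymm ?_ ?_
    · exact Nat.Coprime.dvd_of_dvd_mul_right (by rw [hk]; exact b5.symm.pow_left k) (e ▸ dvd_mul_right _ _)
    · exact Nat.Coprime.dvd_of_dvd_mul_right (by rw [hl]; exact a5.symm.pow_left l)
        (e.symm ▸ dvd_mul_right _ _)
  have eQ : Nat.card Q = Nat.card Q' := by
    have e := a6.trans (cd.trans b6.symm)
    rw [eP] at e
    exact Nat.eq_of_mul_eq_mul_left Nat.card_pos e
  obtain ⟨g, hg⟩ := hB Q Q' a4 b4 eQ
  change Q' = cj g Q at hg
  have cQ : ⁅Q, P⁆ ≤ f.ker := (commutator_mono (a3 ▸ le_sup_right) (a3 ▸ le_sup_left)).trans (cm A hA)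
  have cQ' : ⁅Q', P'⁆ ≤ f.ker :=
    (commutator_mono (b3 ▸ le_sup_right) (b3 ▸ le_sup_left)).trans (cm B hB')
  by_cases h0 : P = f.ker
  · have h0' : f.ker = P' := eq_of_le_of_card_ge b1 (by rw [← eP, h0])
    exact ⟨g, by rw [← a3, ← b3, cj_sup, h0, ← h0', cj_eq_self_of_normal, hg]⟩
  have l1 : f.ker < P := lt_of_le_of_ne a1 (Ne.symm h0)
  have l2 : f.ker < P' := lt_of_le_of_ne b1 fun e =>
    h0 (eq_of_le_of_card_ge a1 (by rw [eP, e])).symm
  have case3 : f.ker ≤ center G → IsSyl p P ⊤ → IsSyl p P' ⊤ → ∃ g, B.comap f = cj g (A.comap f) :=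
    fun hZ s1 s2 => by
    have c1 := cent_of_central hN hZ a5 cQ
    have c2 := cent_of_central hN hZ b5 cQ'
    have c3 : cj g P ≤ centralizer (Q' : Set G) := by rw [hg, ← cj_centralizer]; exact cj_mono g c1
    have s3 := s1.cj g
    rw [cj_top] at s3
    obtain ⟨c, hc1, hc2⟩ := (s3.of_le c3 le_top).exists_cj_eq (s2.of_le c2 le_top)
    refine ⟨c * g, ?_⟩
    rw [← a3, ← b3, ← cj_cj, cj_sup, cj_sup, hc2, ← hg, cj_eq_self (centralizer_le_normalizer _ hc1)]
  have ab : ∀ {P Q : Subgroup G}, IsCyclic P → IsPGroup p P → f.ker < P → IsMulCommutative Q →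
      (Nat.card Q).Coprime p → ⁅Q, P⁆ ≤ f.ker → IsMulCommutative (P ⊔ Q : Subgroup G) := by
    intro P Q cy pP l cq cop cc
    have nr : Q ≤ normalizer (P : Set G) := fun q hq =>
      mem_normalizer_of_cj_le (by
        rintro _ ⟨x, hx, rfl⟩
        have := P.mul_mem (l.le (cc (commutator_mem_commutator hq hx))) hx
        simpa [commutatorElement_def] using this)
    obtain ⟨k, hk⟩ := IsPGroup.iff_card.1 pP
    rcases pP.commutator_eq_bot_or_commutator_eq_self nr (by rw [hk]; exact cop.symm.pow_left k) with h | h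
    · have h1 : Q ≤ centralizer (P : Set G) := commutator_eq_bot_iff_le_centralizer.1 h
      have := cy.isMulCommutative
      rw [← le_centralizer_iff_isMulCommutative, sup_le_iff, le_centralizer_iff, le_centralizer_iff (H := Q)]
      exact ⟨sup_le P.le_centralizer h1, sup_le (le_centralizer_iff.1 h1) Q.le_centralizer⟩
    · exact absurd (h ▸ cc) l.not_ge
  rcases hR P a2 l1 with h1 | ⟨hZ, s1⟩
  · rcases hR P' b2 l2 with h2 | ⟨hZ, s2⟩
    · exact hB _ _ (a3 ▸ ab h1 a2 l1 a4 a5 cQ) (b3 ▸ ab h2 b2 l2 b4 b5 cQ') cd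
    · exact case3 hZ (s2.of_card_ge a2 le_top eP.ge) s2
  · exact case3 hZ s1 (s1.of_card_ge b2 le_top eP.le)

omit hp in
theorem absorb (hB : BP G) (M : Subgroup G) [M.Normal] {a m : G} (hm : m ∈ M)
    (e : orderOf m = orderOf a) : a ∈ M := (Cfsg.Agent.S3909.result hB M).1 a ⟨m, hm, e⟩

theorem absorb_p (hB : BP G) {N : Subgroup G} [N.Normal] (hN : IsPGroup p N) (h0 : N ≠ ⊥) {x : G}
    (hx : x ^ p = 1) : x ∈ N := by
  by_cases h1 : x = 1
  · rw [h1]; exact N.one_mem
  have : Nontrivial N := (nontrivial_iff_ne_bot N).2 h0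
  obtain ⟨k, hk, e⟩ := hN.nontrivial_iff_card.1 this
  obtain ⟨m, hm⟩ := exists_prime_orderOf_dvd_card' (G := N) p (e ▸ dvd_pow_self p hk.ne')
  exact absorb hB N m.2 (by rw [orderOf_coe, hm, orderOf_eq_prime hx h1])

theorem hR_easy (hB : BP G) {N : Subgroup G} [N.Normal] (hN : IsPGroup p N) (h0 : N ≠ ⊥)
    {R : Subgroup G} (l : N < R) {P : Subgroup G} (hP : R ≤ P)
    (h : IsCyclic P ∨ ∀ x ∈ P, x ^ p = 1) : IsCyclic R := by
  rcases h with h | h
  · exact isCyclic_of_le hP
  · exact absurd (fun x hx => absorb_p hB hN h0 (h x (hP hx))) l.not_ge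

theorem no_big (hB : BP G) [Group.IsSolvable G] {P : Subgroup G} {k : ℕ}
    (e : P ≃* QuaternionGroup (2 ^ (k + 2))) : False := by
  let ψ : QuaternionGroup (2 ^ (k + 2)) →* G := P.subtype.comp e.symm.toMonoidHom
  have inj : Function.Injective ψ := P.subtype_injective.comp e.symm.injective
  have key : ∀ n, ∀ x, ψ x ∈ derivedSeries G n := by
    intro n
    induction n with
    | zero => intro x; trivial
    | succ n ih =>
      have h1 : ψ ⁅(QuaternionGroup.xa 0 : QuaternionGroup (2 ^ (k + 2))),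
          (QuaternionGroup.a 1 : QuaternionGroup (2 ^ (k + 2)))⁆ ∈ derivedSeries G (n + 1) := by
        rw [map_commutatorElement]
        exact commutator_mem_commutator (ih _) (ih _)
      have h2 : ⁅(QuaternionGroup.xa 0 : QuaternionGroup (2 ^ (k + 2))),
          (QuaternionGroup.a 1 : QuaternionGroup (2 ^ (k + 2)))⁆ =
          (QuaternionGroup.a 1 ^ 2)⁻¹ := by
        rw [commutatorElement_def, eq_inv_iff_mul_eq_one]
        have : (QuaternionGroup.xa 0 : QuaternionGroup (2 ^ (k + 2))) * QuaternionGroup.a 1 =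
            (QuaternionGroup.a 1)⁻¹ * QuaternionGroup.xa 0 := by
          rw [eq_inv_mul_iff_mul_eq]; simp
        rw [this]; group
      have h3 : orderOf (ψ ((QuaternionGroup.a 1 ^ 2) ^ 2 ^ k)) = 4 := by
        rw [orderOf_injective ψ inj, ← pow_mul, orderOf_pow_of_dvd (by positivity)
          (by rw [QuaternionGroup.orderOf_a_one]; exact ⟨4, by ring⟩), QuaternionGroup.orderOf_a_one]
        exact Nat.div_eq_of_eq_mul_right (by positivity) (by ring)
      have h4 : ∀ i, ψ (QuaternionGroup.xa i) ∈ derivedSeries G (n + 1) := fun i =>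
        absorb hB _ (m := ψ ((QuaternionGroup.a 1 ^ 2) ^ 2 ^ k)) (by
          rw [h2, map_inv, inv_mem_iff] at h1
          rw [map_pow]; exact pow_mem h1 _) (by
          rw [h3, orderOf_injective ψ inj, QuaternionGroup.orderOf_xa])
      rintro (i | i)
      · have := mul_mem (inv_mem (h4 0)) (h4 i)
        rw [← map_inv, ← map_mul] at this
        convert this using 2
        rw [eq_inv_mul_iff_mul_eq]; simp
      · exact h4 i
  obtain ⟨n, hn⟩ := Group.IsSolvable.solvable (G := G)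
  have := key n (QuaternionGroup.xa 0)
  rw [hn, mem_bot, ← orderOf_eq_one_iff, orderOf_injective ψ inj, QuaternionGroup.orderOf_xa] at this
  omega

theorem q8_facts : (∀ x : QuaternionGroup 2, x ^ 2 = 1 ∨ orderOf x = 4) ∧
    ∀ x y : QuaternionGroup 2, x ^ 2 = 1 → y ^ 2 = 1 → x = 1 ∨ y = 1 ∨ x = y := by
  refine ⟨fun x => ?_, by decide⟩
  by_cases h : x ^ 2 = 1
  · exact Or.inl h
  · exact Or.inr (orderOf_eq_prime_pow (p := 2) (n := 1) h
      ((by decide : ∀ x : QuaternionGroup 2, x ^ 2 ^ (1 + 1) = 1) x))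

theorem hR_q8 (hB : BP G) {N : Subgroup G} [N.Normal] (hN : IsPGroup 2 N) (h0 : N ≠ ⊥)
    {R : Subgroup G} (l : N < R) (P : Sylow 2 G) (hP : R ≤ P)
    (e : (P : Subgroup G) ≃* QuaternionGroup 2) :
    IsCyclic R ∨ (N ≤ center G ∧ IsSyl 2 R ⊤) := by
  have f1 : ∀ x ∈ (P : Subgroup G), x ^ 2 = 1 ∨ orderOf x = 4 := fun x hx =>
    (q8_facts.1 (e ⟨x, hx⟩)).imp (fun h => by
      rw [← map_pow, EmbeddingLike.map_eq_one_iff] at h; exact congrArg Subtype.val h)
      fun h => by rwa [MulEquiv.orderOf_eq, ← orderOf_coe] at h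
  have f2 : ∀ x ∈ (P : Subgroup G), ∀ y ∈ (P : Subgroup G), x ^ 2 = 1 → y ^ 2 = 1 →
      x = 1 ∨ y = 1 ∨ x = y := fun x hx y hy h1 h2 => by
    have := q8_facts.2 (e ⟨x, hx⟩) (e ⟨y, hy⟩) (by rw [← map_pow]; simp [← Subtype.coe_inj, h1])
      (by rw [← map_pow]; simp [← Subtype.coe_inj, h2])
    simpa [← Subtype.coe_inj] using this
  obtain ⟨-, x, hx, hxN⟩ := SetLike.lt_iff_le_and_exists.1 l
  have x4 : orderOf x = 4 := (f1 x (hP hx)).resolve_left fun h => hxN (absorb_p hB hN h0 h)
  have n2 : ∀ m ∈ N, m ^ 2 = 1 := fun m hm => (f1 m (hP (l.le hm))).resolve_right fun h =>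
    hxN (absorb hB N hm (h.trans x4.symm))
  have hZ : N ≤ center G := fun m hm => mem_center_iff.2 fun g => by
    have h1 := ‹N.Normal›.conj_mem m hm g
    rcases f2 _ (hP (l.le hm)) _ (hP (l.le h1)) (n2 _ hm) (n2 _ h1) with h | h | h
    · simp [h]
    · rw [conj_eq_one_iff] at h; simp [h]
    · exact mul_inv_eq_iff_eq_mul.1 h.symm
  have c8 : Nat.card (P : Subgroup G) = 8 := by
    rw [Nat.card_congr e.toEquiv, Nat.card_eq_fintype_card, QuaternionGroup.card]
  by_cases h8 : 8 ≤ Nat.card R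
  · exact Or.inr ⟨hZ, (isSyl_sylow P).of_card_ge (P.isPGroup'.to_le hP) le_top (c8 ▸ h8)⟩
  left
  have d1 : Nat.card R ∣ 8 := c8 ▸ card_dvd_of_le hP
  have d2 : 4 ∣ Nat.card R := x4 ▸ orderOf_dvd_natCard R hx
  have d3 : Nat.card R = 4 := by
    have := Nat.le_of_dvd (by norm_num) d1
    have h3 : Nat.card R ≠ 0 := Nat.card_pos.ne'
    omega
  exact isCyclic_of_orderOf_eq_card (⟨x, hx⟩ : R) (by rw [← orderOf_coe, d3]; exact x4)

theorem step' (hB : BP G) (f : G →* H) (hf : Function.Surjective f) (hN : IsPGroup p f.ker)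
    (h0 : f.ker ≠ ⊥) (h : p ≠ 2 ∨ Group.IsSolvable G) : BP H := by
  refine step hB f hf hN fun R hR l => ?_
  obtain ⟨P, hP⟩ := hR.exists_le_sylow
  by_cases h2 : p = 2
  swap
  · exact Or.inl (hR_easy hB hN h0 l hP ((Cfsg.Agent.S3908.result hB).2 p h2 P))
  subst h2
  have := h.resolve_left (by simp)
  rcases (Cfsg.Agent.S3908.result hB).1 P with h | h | ⟨k, ⟨e⟩⟩
  · exact Or.inl (hR_easy hB hN h0 l hP (Or.inl h))
  · exact Or.inl (hR_easy hB hN h0 l hP (Or.inr h.2))
  · match k, e with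
    | 0, e =>
      have := QuaternionGroup.quaternionGroup_one_isCyclic
      exact Or.inl (hR_easy hB hN h0 l hP (Or.inl (isCyclic_of_injective e.toMonoidHom e.injective)))
    | 1, e => exact hR_q8 hB hN h0 l P hP e
    | k + 2, e => exact (no_big hB e).elim

theorem main (n : ℕ) : ∀ (G : Type u) [Group G] [Finite G] (f : G →* H), Function.Surjective f →
    Nat.card G = n → Group.IsSolvable f.ker → (Odd (Nat.card f.ker) ∨ Group.IsSolvable G) →
    BP G → BP H := by
  induction n using Nat.strong_induction_on with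
  | _ n ih =>
    intro G _ _ f hf hn hs h hB
    by_cases h0 : f.ker = ⊥
    · have e := MulEquiv.ofBijective f ⟨(MonoidHom.ker_eq_bot_iff f).1 h0, hf⟩
      intro A B hA hB' hc
      obtain ⟨g, hg⟩ := hB (A.map e.symm.toMonoidHom) (B.map e.symm.toMonoidHom) inferInstance
        inferInstance (by rw [card_map_of_injective e.symm.injective,
          card_map_of_injective e.symm.injective, hc])
      refine ⟨e g, ?_⟩
      have := congrArg (Subgroup.map e.toMonoidHom) hg
      change _ = (cj g _).map _ at this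
      rw [map_cj] at this
      change B = cj (e g) A
      simpa [map_map] using this
    obtain ⟨p, M, pp, hM, hle, hne, -, hp, -⟩ := H2.exists_elementaryAbelian_normal_le f.ker h0
    have : Fact p.Prime := ⟨pp⟩
    have kM := QuotientGroup.ker_mk' M
    have h1 : BP (G ⧸ M) := step' (p := p) hB (QuotientGroup.mk' M) (QuotientGroup.mk'_surjective M)
      (kM.symm ▸ hp) (kM.symm ▸ hne) (h.imp_left fun h e => by
        have : Nontrivial M := (nontrivial_iff_ne_bot M).2 hne
        obtain ⟨k, hk, e'⟩ := hp.nontrivial_iff_card.1 this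
        have : 2 ∣ Nat.card f.ker := (e ▸ e' ▸ dvd_pow_self p hk.ne').trans (card_dvd_of_le hle)
        exact (Nat.not_even_iff_odd.2 h) (even_iff_two_dvd.2 this))
    have kl : (QuotientGroup.lift M f hle).ker = f.ker.map (QuotientGroup.mk' M) :=
      QuotientGroup.ker_lift M f hle
    refine ih _ ?_ (G ⧸ M) (QuotientGroup.lift M f hle)
      (QuotientGroup.lift_surjective_of_surjective M f hf hle) rfl ?_ ?_ h1
    · rw [← hn, card_eq_card_quotient_mul_card_subgroup M]
      exact lt_mul_of_one_lt_right Nat.card_pos ((one_lt_card_iff_ne_bot M).2 hne)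
    · rw [kl]; exact H2.isSolvable_map _ _
    · refine h.imp (fun h => ?_) fun h => by have := h; infer_instance
      rw [kl]
      exact h.of_dvd_nat (card_map_dvd _ _)

end H18.BG
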