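/- C3 tower (row S5227), slot L0a. -/
import Cfsg.Agent.H20.C3Spec

set_option autoImplicit false
set_option linter.unusedSectionVars false
set_option linter.unusedSimpArgs false
set_option linter.unusedVariables false
set_option linter.unnecessarySeqFocus false

open Subgroup H90.RF H90.U5 H20.C3

namespace H18.C3L0a

variable {E M : Subgroup H20.C3.Co} {s m x : H20.C3.Co}

theorem cm_mem (hs : s ∈ E) (hm : m ∈ E) : cm s m ∈ E :=
  mul_mem (inv_mem hm) (mul_mem (mul_mem hs hm) (inv_mem hs))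

theorem cen0 (h : Bq 3 H20.C3.zA 0 E M) (hs : s ∈ E) (hm : m ∈ M) : cm s m = 1 :=
  mem_bot.1 ((h.cen s).1 hs m hm)

theorem cm_A (hs : s ∈ sA) (hm : m ∈ sA) : cm s m = 1 := by
  obtain ⟨h1, h2, h3⟩ := hs
  obtain ⟨k1, k2, k3⟩ := hm
  ext <;> simp [H20.C3.cm_d, H20.C3.cm_e, cm_f, H20.C3.cm_g, cm_h, cm_z, *]

theorem cm_E1W (hs : s ∈ sE1) (hm : m ∈ sW) : cm s m = 1 := by
  rw [mem_sE1] at hs
  obtain ⟨k1, k2, k3, k4, k5, k6⟩ := hm
  ext <;> simp [H20.C3.cm_d, H20.C3.cm_e, cm_f, H20.C3.cm_g, cm_h, cm_z, *]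

theorem cm_Zc (s : H20.C3.Co) (hm : m ∈ H20.C3.sZ) : cm s m = 1 := by
  obtain ⟨k1, k2, k3, k4, k5, k6, k7, k8⟩ := hm
  ext <;> simp [H20.C3.cm_d, H20.C3.cm_e, cm_f, H20.C3.cm_g, cm_h, cm_z, *]

theorem cm_E2 (hs : s ∈ sE2) (hm : m ∈ sE2) : cm s m ∈ sW2 := by
  rw [mem_sE2] at hs hm
  simp [mem_sW2, H20.C3.cm_d, H20.C3.cm_e, H20.C3.cm_g, hs, hm]

theorem cm_E2W2 (hs : s ∈ sE2) (hm : m ∈ sW2) : cm s m ∈ H20.C3.sZ := by
  rw [mem_sE2] at hs
  obtain ⟨k1, k2, k3, k4, k5, k6⟩ := hm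
  simp [H20.C3.mem_sZ, H20.C3.cm_d, H20.C3.cm_e, cm_f, H20.C3.cm_g, cm_h, *]

theorem caseW (h : Bq 3 H20.C3.zA 0 E M) (hM : M ≤ sW) : E = sE1 := by
  refine le_antisymm (fun s hs => ?_) fun s hs => (h.cen s).2 fun m hm => mem_bot.2 (cm_E1W hs (hM hm))
  obtain ⟨m, hm, hm'⟩ := SetLike.not_le_iff_exists.1
    (h.not_le (X := H20.C3.sZ) fun c hc s => mem_bot.2 (cm_Zc s hc))
  obtain ⟨k1, k2, k3, k4, k5, k6⟩ := hM hm
  have e := cen0 h hs hm
  have e1 := congrArg H20.C3.Co.h e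
  have e2 := congrArg H20.C3.Co.z e
  simp only [cm_h, cm_z, k1, k2, k3, k4, k5, k6, H20.C3.Co.one_h, H20.C3.Co.one_z] at e1 e2
  by_contra ha
  have ha : s.a ≠ 0 := ha
  have k7 : m.g = 0 := mul_right_cancel₀ ha (by linear_combination e1)
  refine hm' ⟨k1, k2, k3, k4, k5, k6, k7, mul_right_cancel₀ ha ?_⟩
  rw [k7] at e2
  linear_combination -e2 + m.h * s.a * three

theorem d_zero (h : Bq 3 H20.C3.zA 0 E M) (hm : m ∈ M) (hA : m ∈ sA) (hW : m ∉ sW) (hs : s ∈ E) (ha : s.a = 0)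
    (hb : s.b = 0) : s.d = 0 := by
  obtain ⟨k1, k2, k3⟩ := hA
  have e := cen0 h hs hm
  have e1 := congrArg H20.C3.Co.f e
  have e2 := congrArg H20.C3.Co.h e
  have e3 := congrArg H20.C3.Co.z e
  simp only [cm_f, cm_h, cm_z, k1, k2, k3, ha, hb, H20.C3.Co.one_f, H20.C3.Co.one_h, H20.C3.Co.one_z]
    at e1 e2 e3
  by_contra hd
  have k4 : m.c = 0 := mul_right_cancel₀ hd (by linear_combination e1)
  refine hW ⟨k1, k2, k3, k4, mul_right_cancel₀ hd (by linear_combination e2), mul_right_cancel₀ hd ?_⟩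
  rw [k4] at e3
  linear_combination -e3 + m.f * s.d * three

theorem a_ne (h : Bq 3 H20.C3.zA 0 E M) (hm : m ∈ M) (hA : m ∈ sA) (hW : m ∉ sW) (hx : x ∈ E) (hx' : x ∉ sA) :
    x.a ≠ 0 := fun ha => by
  have hb : x.b ≠ 0 := fun hb => hx' ⟨ha, hb, d_zero h hm hA hW hx ha hb⟩
  obtain ⟨k1, k2, k3⟩ := hA
  have e := cen0 h hx hm
  have e1 := congrArg H20.C3.Co.e e
  have e2 := congrArg H20.C3.Co.g e
  have e3 := congrArg H20.C3.Co.h e
  simp only [H20.C3.cm_e, H20.C3.cm_g, cm_h, k1, k2, k3, ha, H20.C3.Co.one_e, H20.C3.Co.one_g,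
    H20.C3.Co.one_h] at e1 e2 e3
  have k4 : m.c = 0 := mul_right_cancel₀ hb (by linear_combination e1)
  rw [k4] at e2 e3
  have k5 : m.e = 0 := mul_right_cancel₀ hb (by linear_combination -e2 + m.e * x.b * three)
  rw [k5] at e3
  exact hW ⟨k1, k2, k3, k4, k5, mul_right_cancel₀ hb (by linear_combination e3)⟩

theorem caseX (h : Bq 3 H20.C3.zA 0 E M) (hA : sA ≤ E) (hd : ∀ s ∈ E, s.a = 0 → s.b = 0 → s.d = 0) (hx : x ∈ E)
    (ha : x.a = 1) : x.b ≠ 0 ∧ E = sE4 x.b x.d := by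
  have hb : ∀ t ∈ E, t.b = x.b * t.a := fun t ht => by
    have e := hd _ (cm_mem ht hx) (H20.C3.cm_a _ _) (H20.C3.cm_b _ _)
    rw [H20.C3.cm_d, ha] at e
    linear_combination -e
  refine ⟨fun b0 => ?_, le_antisymm (fun t ht => ?_) fun t ht => ?_⟩
  · have hE : E ≤ sE2 := fun t ht => by rw [mem_sE2, hb t ht, b0, zero_mul]
    refine h.not_le (X := H20.C3.sZ) (fun c hc s => mem_bot.2 (cm_Zc s hc)) (h.gen_le fun β hβ u hu _ => ?_)
    have m1 : H20.C3.xg (2 * u.z) ∈ E := hA ⟨rfl, rfl, rfl⟩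
    have e : u = cm x (cm x (H20.C3.xg (2 * u.z))) := by
      obtain ⟨k1, k2, k3, k4, k5, k6, k7, k8⟩ : u ∈ H20.C3.sZ := hu
      ext <;> simp [H20.C3.cm_d, H20.C3.cm_e, cm_f, H20.C3.cm_g, cm_h, cm_z, H20.C3.xg, ha, b0, k1, k2, k3,
        k4, k5, k6, k7, k8]
      linear_combination -u.z * three
    rw [e, hβ.1.cm hx (cm_mem hx m1), hβ.1.cm hx m1]
    exact cm_E2W2 (hE (hβ.1.mem _ hx)) (cm_E2 (hE (hβ.1.mem _ hx)) (hE (hβ.1.mem _ m1)))
  · have e := hb t ht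
    refine ⟨e, ?_⟩
    rcases tri t.a with h1 | h1 | h1
    · simpa [h1] using hd t ht h1 (by rw [e, h1, mul_zero])
    · have := hd _ (mul_mem ht (inv_mem hx)) (by simp [h1, ha]) (by simp [e, h1])
      simp only [H20.C3.Co.mul_d, H20.C3.Co.inv_d, H20.C3.Co.inv_b, h1, ha] at this ⊢
      linear_combination this
    · have := hd _ (mul_mem ht hx) (by simp [h1, ha]) (by simp [e, h1])
      simp only [H20.C3.Co.mul_d, h1, ha] at this ⊢
      linear_combination this + x.b * three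
  · obtain ⟨e1, e2⟩ := ht
    rcases tri t.a with h1 | h1 | h1
    · exact hA ⟨h1, by simp [e1, h1], by simp [e2, h1]⟩
    · exact (mul_mem_cancel_right (inv_mem hx)).1 (hA ⟨by simp [h1, ha], by simp [e1, h1], by
        simp [e2, h1, ha]⟩)
    · refine (mul_mem_cancel_right hx).1 (hA ⟨by simp [h1, ha], by simp [e1, h1], ?_⟩)
      simp only [H20.C3.Co.mul_d, e2, h1]
      linear_combination -x.b * three

theorem jobL0a : H20.C3.JobL0a := by
  intro E M h hM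
  by_cases hW : M ≤ sW
  · exact .inl (caseW h hW)
  obtain ⟨m, hm, hW⟩ := SetLike.not_le_iff_exists.1 hW
  have hA : sA ≤ E := fun s hs => (h.cen s).2 fun m hm => mem_bot.2 (cm_A hs (hM hm))
  by_cases hE : E ≤ sA
  · exact .inr (.inl (le_antisymm hE hA))
  obtain ⟨x, hx, hx'⟩ := SetLike.not_le_iff_exists.1 hE
  have hd : ∀ s ∈ E, s.a = 0 → s.b = 0 → s.d = 0 := fun s hs => d_zero h hm (hM hm) hW hs
  rcases tri x.a with h1 | h1 | h1
  · exact absurd h1 (a_ne h hm (hM hm) hW hx hx')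
  · exact .inr (.inr ⟨_, _, caseX h hA hd hx h1⟩)
  · exact .inr (.inr ⟨_, _, caseX h hA hd (inv_mem hx) (by simp [h1])⟩)

end H18.C3L0a
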