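import Cfsg.Agent.H48.DP3Kit
import Cfsg.Agent.H12.ExtTransfer

/-! Tower DP3 (S3275, chapter 3), job SM3. -/

set_option autoImplicit false

namespace H18.DpSM3

open Subgroup Cfsg H98 H97 H48.DP
open scoped commutatorElement

universe u

variable {G : Type*} [Group G] [Finite G]

theorem le_C1_of_conj {T R : Subgroup G} (h : S3 T R) {y z : G} (hy : y ∈ R) (hyT : y ∉ T)
    (h1 : T ≤ C1 z) (h2 : T ≤ C1 (y * z * y⁻¹)) : R ≤ C1 z := by
  rcases h.max (le_inf h1 h.le) inf_le_right with e | e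
  · refine absurd (h.le_of le_normalizer (inv_mem_iff.1 (mem_normalizer_of_cj_le (g := y⁻¹)
      fun t ht => ?_)) hy hyT) h.nn
    have ht' := mem_cj.1 ht
    rw [inv_inv] at ht'
    rw [← e]
    refine ⟨mem_C1.2 ?_, (mul_mem_cancel_left hy).1 ((mul_mem_cancel_right (inv_mem hy)).1 (h.le ht'))⟩
    have := mem_C1.1 (h2 ht')
    calc z * t = y⁻¹ * (y * z * y⁻¹ * (y * t * y⁻¹)) * y := by group
      _ = t * z := by rw [this]; group
  · exact e ▸ inf_le_left

omit [Finite G] in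
theorem comm_mem_of_sq {A V : Subgroup G} (h : ∀ a ∈ A, a * a ∈ V) {a b : G} (ha : a ∈ A)
    (hb : b ∈ A) : ⁅a, b⁆ ∈ V := by
  have := mul_mem (mul_mem (h a ha) (h _ (mul_mem (inv_mem ha) hb))) (inv_mem (h b hb))
  convert this using 1
  rw [commutatorElement_def]
  group

/-- If all squares of `O₂(P)`, `O₂(R)` lie in `V`, then `[T, T] ∩ O₂(L) ≤ V`. -/
theorem comm_inf_le {T P R L V : Subgroup G} (h : LT T P R L) (hV : V ≤ O2 L) (hn : T ≤ No V)
    (h1 : ∀ a ∈ O2 P, a * a ∈ V) (h2 : ∀ a ∈ O2 R, a * a ∈ V) : ⁅T, T⁆ ⊓ O2 L ≤ V := by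
  obtain ⟨s, hs, hs'⟩ := SetLike.not_le_iff_exists.1 h.not_le
  obtain ⟨r, hr, hr'⟩ := SetLike.not_le_iff_exists.1 h.symm.not_le
  have PT := h.h1.s3.o2_le
  have RT := h.h2.s3.o2_le
  have nP : T ≤ No (O2 P) := h.h1.s3.le.trans (self_le_normalizer_pCoreOf P)
  have nR : T ≤ No (O2 R) := h.h2.s3.le.trans (self_le_normalizer_pCoreOf R)
  have nL : T ≤ No (O2 L) := h.le.trans (self_le_normalizer_pCoreOf L)
  have kP : ⁅s, r⁆ ∈ O2 P := commutator_le_left' ((RT.trans nP)) (commutator_mem_commutator hs hr)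
  have kR : ⁅s, r⁆ ∈ O2 R := commutator_le_right' ((PT.trans nR)) (commutator_mem_commutator hs hr)
  have kL : ⁅s, r⁆ ∉ O2 L := fun k => by
    refine h.sq (s * r) (mul_mem (PT hs) (RT hr)) (fun a => hr' ((mul_mem_cancel_left hs).1 a))
      (fun a => hs' ((mul_mem_cancel_right hr).1 a)) ?_
    have := mul_mem (mul_mem k (conj_mem_of_mem_normalizer (nL (RT hr)) (hV (h1 s hs))))
      (hV (h2 r hr))
    convert this using 1
    rw [commutatorElement_def]
    group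
  have kT : ∀ u ∈ T, ⁅⁅s, r⁆, u⁆ ∈ V := fun u hu => by
    have : T ≤ stab (O2 P ⊓ O2 R) V := h.sup.ge.trans (sup_le
      (fun a ha => mem_stab.2 ⟨hn (PT ha), fun c hc => comm_mem_of_sq h1 hc.1 ha⟩)
      fun a ha => mem_stab.2 ⟨hn (RT ha), fun c hc => comm_mem_of_sq h2 hc.2 ha⟩)
    exact (mem_stab.1 (this hu)).2 _ ⟨kP, kR⟩
  set D := zpowers ⁅s, r⁆ ⊔ V with hD
  have kD : ⁅s, r⁆ ∈ D := mem_sup_left (mem_zpowers _)
  have nD : T ≤ No D := fun u hu => mem_normalizer_of_cj_le (by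
    rw [hD, cj_sup, cj_eq_self (hn hu)]
    refine sup_le ?_ le_sup_right
    rw [cj, MonoidHom.map_zpowers, zpowers_le]
    have := mul_mem (inv_mem (mem_sup_right (kT u hu) : _ ∈ D)) kD
    convert this using 1
    simp only [commutatorElement_def ⁅s, r⁆, MulEquiv.toMonoidHom_eq_coe, MonoidHom.coe_coe,
      MulAut.conj_apply]
    group)
  have c1 : ⁅O2 P, O2 R⁆ ≤ D := commutator_le.2 fun a ha b hb => by
    by_cases a1 : a ∈ O2 R
    · exact mem_sup_right (comm_mem_of_sq h2 a1 hb)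
    by_cases b1 : b ∈ O2 P
    · exact mem_sup_right (comm_mem_of_sq h1 ha b1)
    have a2 : s⁻¹ * a ∈ O2 R := h.h2.s3.mul_mem (inv_mem (PT hs)) (by simpa using hs') (PT ha) a1
    have b2 : r⁻¹ * b ∈ O2 P := h.h1.s3.mul_mem (inv_mem (RT hr)) (by simpa using hr') (RT hb) b1
    have := mul_mem (mul_mem (mem_sup_right (conj_mem_of_mem_normalizer (hn (PT hs))
      (comm_mem_of_sq h2 a2 hb)) : _ ∈ D) kD) (mem_sup_right (conj_mem_of_mem_normalizer (hn (RT hr))
      (comm_mem_of_sq h1 hs b2)) : _ ∈ D)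
    convert this using 1
    simp only [commutatorElement_def]
    group
  have c2 : ⁅T, T⁆ ≤ D := by
    rw [← h.sup]
    refine commutator_sup_left_le (PT.trans nD) (RT.trans nD)
      (commutator_sup_right_le (PT.trans nD) (RT.trans nD) ?_ c1)
      (commutator_sup_right_le (PT.trans nD) (RT.trans nD) (commutator_comm (O2 P) _ ▸ c1) ?_)
    · exact commutator_le.2 fun a ha b hb => mem_sup_right (comm_mem_of_sq h1 ha hb)
    · exact commutator_le.2 fun a ha b hb => mem_sup_right (comm_mem_of_sq h2 ha hb)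
  refine (inf_le_inf_right _ c2).trans ?_
  rw [hD, sup_inf_of_le_right ((zpowers_le (G := G)).2 (hn (PT kP))) hV]
  refine sup_le ?_ le_rfl
  rintro _ ⟨⟨n, rfl⟩, hm⟩
  have k2 := h1 _ kP
  obtain ⟨m, rfl | rfl⟩ := Int.even_or_odd' n
  · show ⁅s, r⁆ ^ (2 * m) ∈ V
    rw [zpow_mul, zpow_two]
    exact zpow_mem k2 m
  · refine absurd ?_ kL
    have hm' : ⁅s, r⁆ ^ (2 * m + 1) ∈ O2 L := hm
    rw [zpow_add_one, zpow_mul, zpow_two] at hm'
    exact (mul_mem_cancel_left (zpow_mem (hV k2) m)).1 hm'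

theorem main (hPt : JobPt.{u}) {G : Type u} [Group G] [Finite G] {T P R L : Subgroup G} {a p : G}
    (hT : IsSyl 2 T ⊤) (hr : res 2 (⊤ : Subgroup G) = ⊤) (h : LT T P R L) (hc : CharP 2 L)
    (he : ∀ a ∈ O2 L, a * a = 1) (h16 : Nat.card (O2 L) = 16) (haL : a ∉ O2 L)
    (ha : a ∈ O2 P ∨ a ∈ O2 R) {w : G} (hw : w ∈ O2 L) (hsq : a * a = ⁅w, a⁆)
    (tv : Tv T P R L p) : False := by
  have hab : ∀ u ∈ O2 L, ∀ v ∈ O2 L, u * v = v * u := fun u hu v hv =>
    commutatorElement_eq_one_iff_mul_comm.1 (mem_bot.1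
      (comm_mem_of_sq (V := ⊥) (fun b hb => mem_bot.2 (he b hb)) hu hv))
  have hW : Zq L = O2 L := le_antisymm (Zq_le L) fun u hu =>
    mem_oZ.2 ⟨hu, mem_Ce.2 fun v hv => hab v hv u hu, by rw [sq, he u hu]⟩
  have ZP : oZ 2 T = Zq P := le_antisymm (fun z hz => h.h1.mem_Zq (oZ_le_Zq hc h.le h.o2_le hz)
      (centralizer_anti h.h1.s3.o2_le (mem_oZ.1 hz).2.1)) fun z hz =>
    mem_oZ.2 ⟨h.h1.s3.o2_le (Zq_le P hz),
      le_centralizer_iff.1 (h.h1.s3.le.trans tv.cen) hz, (mem_oZ.1 hz).2.2⟩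
  have PR : Zq P ≤ Zq R := fun z hz => by
    rw [← ZP] at hz
    exact h.h2.mem_Zq (oZ_le_Zq hc h.le h.o2_le hz) (centralizer_anti h.h2.s3.o2_le (mem_oZ.1 hz).2.1)
  have PW : Zq P ≤ O2 L := hW ▸ h.h1.Zq_le hc
  have PC : ∀ z ∈ Zq P, P ≤ C1 z := fun z hz g hg => mem_C1.2 (mem_Ce.1 (tv.cen hg) z hz)
  have pP : p ∈ Zq P := ZP ▸ tv.mem
  have pp : p * p = 1 := he p (PW pP)
  have i2 : (Zq P).relIndex (Zq R) = 2 := by
    have e := relIndex_mul_relIndex _ _ _ PR (h.h2.Zq_le hc)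
    rw [tv.i2, tv.i4] at e
    omega
  have c4 : (⊥ : Subgroup G).relIndex (Zq P) = 4 := by
    have e := relIndex_mul_relIndex _ _ _ (bot_le (a := Zq P)) (h.h1.Zq_le hc)
    rw [tv.i4, relIndex_bot_left (Zq L), hW, h16] at e
    omega
  obtain ⟨y, hy, y3, hln⟩ := tv.ln
  have yT := h.h2.s3.not_mem y3
  have key : ∀ z ∈ Zq P, y * z * y⁻¹ ∈ Zq P → R ≤ C1 z := fun z hz hz' =>
    le_C1_of_conj h.h2.s3 hy yT (h.h1.s3.le.trans (PC z hz)) (h.h1.s3.le.trans (PC _ hz'))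
  -- the central involution
  obtain ⟨c, cP, c1, cp, cR⟩ : ∃ c ∈ Zq P, c ≠ 1 ∧ c ≠ p ∧ R ≤ C1 c := by
    obtain ⟨q, qP, q1, qp⟩ : ∃ q ∈ Zq P, q ≠ 1 ∧ q ≠ p := by
      by_contra hn
      push Not at hn
      have := relIndex_eq_two_iff_exists_notMem_and.2 (show ∃ a ∈ Zq P, a ∉ (⊥ : Subgroup G) ∧
        ∀ b ∈ Zq P, b * a ∈ (⊥ : Subgroup G) ∨ b ∈ (⊥ : Subgroup G) from
        ⟨p, pP, by simpa using tv.ne, fun b hb => by
          by_cases b1 : b = 1
          · exact .inr (mem_bot.2 b1)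
          · exact .inl (mem_bot.2 (by rw [hn b hb b1, pp]))⟩)
      omega
    by_cases hq : y * q * y⁻¹ ∈ Zq P
    · exact ⟨q, qP, q1, qp, key q qP hq⟩
    refine ⟨p * q, mul_mem pP qP, fun e => qp ?_, by simpa using q1, key _ (mul_mem pP qP) ?_⟩
    · exact mul_left_cancel (e.trans pp.symm)
    · have := mul_mem_of_idx i2.le (conj_mem_of_mem_normalizer (le_No_Zq R hy) (PR pP))
        (conj_mem_of_mem_normalizer (le_No_Zq R hy) (PR qP)) (fun e => tv.nc (key p pP e)) hq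
      convert this using 1
      group
  have cL : L ≤ C1 c := h.eq ▸ sup_le (PC c cP) cR
  have cc : c * c = 1 := he c (PW cP)
  obtain ⟨-, hpt⟩ := hPt G T P R L p y h (h.h1.Zq_le hc pP) (PC p pP) tv.nc hy y3 (mem_bot.1 hln)
  set V := ncl L (zpowers p) with hV
  have nV : L ≤ No V := le_normalizer_ncl _ _
  have nW : L ≤ No (O2 L) := self_le_normalizer_pCoreOf L
  have VW : V ≤ O2 L := ncl_le ((zpowers_le (G := G)).2 (PW pP)) nW
  have pV : p ∈ V := le_ncl _ _ (mem_zpowers p)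
  have cV : c ∉ V := fun e => by
    rcases hpt c e with e | ⟨l, hl, e⟩
    · exact c1 e
    · refine cp ?_
      have := mem_C1.1 (cL hl)
      calc c = l⁻¹ * (c * l) := by rw [this]; group
        _ = p := by rw [e]; group
  obtain ⟨t, tP, tR, tL⟩ := h.exists_t
  have tLL : t ∈ L := h.h1.leL (pCoreOf_le P tP)
  have LK : L ≤ stab (O2 L) V := h.le_of_mem (fun u hu => mem_stab.2 ⟨nV (pCoreOf_le L hu),
      fun v hv => by rw [commutatorElement_eq_one_iff_mul_comm.2 (hab v hv u hu)]; exact one_mem _⟩)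
    (le_normalizer_stab nW nV) (mem_stab.2 ⟨nV tLL, fun v hv => by
      rcases tv.com t tP v (hW.ge hv) with e | e <;> rw [e]
      exacts [one_mem _, pV]⟩) tLL tL
  -- squares
  have s1 : ∀ l ∈ L, ∀ b, b * b ∈ V → l * b * l⁻¹ * (l * b * l⁻¹) ∈ V := fun l hl b hb => by
    have := conj_mem_of_mem_normalizer (nV hl) hb
    convert this using 1
    group
  have s2 : ∀ b ∈ L, ∀ b', b⁻¹ * b' ∈ O2 L → b * b ∈ V → b' * b' ∈ V := fun b hb b' h1 h2 => by
    have := mul_mem h2 (inv_mem ((mem_stab.1 (LK (inv_mem hb))).2 _ h1))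
    rw [← mul_one (b * b * _), ← he _ h1] at this
    convert this using 1
    rw [commutatorElement_def]
    group
  have s3 : ∀ {P R : Subgroup G}, LH T P R L → ∀ b ∈ O2 P, b ∉ O2 L → b * b ∈ V →
      ∀ b' ∈ O2 P, b' * b' ∈ V := fun {P R} k b hb hb' hs b' hb2 => by
    obtain ⟨x, hx, x3⟩ := k.s3.exists_three
    have bL := k.leL (pCoreOf_le P hb)
    have xL := k.leL hx
    rcases k.cos hx x3 hb hb' hb2 with e | e | e | e
    · rw [he _ e]; exact one_mem _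
    · exact s2 b bL b' e hs
    · exact s2 _ (mul_mem (mul_mem xL bL) (inv_mem xL)) b' e (s1 x xL b hs)
    · exact s2 _ (mul_mem (mul_mem (pow_mem xL 2) bL) (inv_mem (pow_mem xL 2))) b' e
        (s1 _ (pow_mem xL 2) b hs)
  have aL : a ∈ L := ha.elim (fun e => h.h1.leL (pCoreOf_le P e)) fun e => h.h2.leL (pCoreOf_le R e)
  have aV : a * a ∈ V := hsq ▸ (mem_stab.1 (LK aL)).2 w hw
  have tV : t * t ∈ V := ha.elim (fun e => s3 h.h1 a e haL aV t tP) fun e => s3 h.h2 a e haL aV t tR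
  have hD := comm_inf_le h VW (h.le.trans nV) (s3 h.h1 t tP tL tV) (s3 h.h2 t tR tL tV)
  have cD : c ∉ ⁅T, T⁆ := fun e => cV (hD ⟨e, PW cP⟩)
  have pD : p ∈ ⁅T, T⁆ := by
    by_contra hn
    refine tL (hc.le ⟨tLL, mem_Ce.2 fun v hv => commutatorElement_eq_one_iff_mul_comm.1
      ((tv.com t tP v (hW.ge hv)).resolve_right fun e => hn ?_)⟩)
    exact e ▸ commutator_mem_commutator (h.o2_le hv) (h.h1.s3.o2_le tP)
  have cT : c ∈ T := h.o2_le (PW cP)
  refine H12.not_mem_res_of_extremal hT le_rfl cc cT cD cT hT.isPGroup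
    (fun r hr => (mem_C1.1 (cL (h.le hr))).symm) (fun g hg => ?_) (hr.ge (mem_top c))
  have gN := mem_normalizer_of_cj_le hg
  have g1 : g * c * g⁻¹ ∈ Zq P := by
    rw [← ZP] at cP ⊢
    exact conj_mem_of_mem_normalizer (normalizer_le_normalizer_oZ T gN) cP
  have pinv : p⁻¹ = p := inv_eq_of_mul_eq_one_right pp
  have cinv : c⁻¹ = c := inv_eq_of_mul_eq_one_right cc
  have pc : p * c ≠ 1 := fun e => cp (mul_left_cancel (e.trans pp.symm))
  rcases cover4 c4 (one_mem _) pP cP (mul_mem cP pP) g1 (by simpa using tv.ne) (by simpa using c1)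
    (by rw [inv_one, one_mul, hab c (PW cP) p (PW pP)]; exact pc) (by rw [pinv]; exact pc)
    (by rw [hab c (PW cP) p (PW pP), inv_mul_cancel_left]; exact c1)
    (by rw [inv_mul_cancel_left]; exact tv.ne) with e | e | e | e
  · rw [inv_one, one_mul, mem_bot, conj_eq_one_iff] at e
    exact absurd e c1
  · refine absurd ?_ cD
    have := conj_mem_of_mem_normalizer' (le_normalizer_commutator le_rfl le_rfl gN) pD
    rw [inv_mul_eq_one.1 (mem_bot.1 e)] at this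
    convert this using 1
    group
  · rw [← inv_mul_eq_one.1 (mem_bot.1 e), cc]
    exact one_mem _
  · rw [← inv_mul_eq_one.1 (mem_bot.1 e), hab c (PW cP) p (PW pP), mul_assoc, cc, mul_one]
    exact pD

theorem jobSM3 : JobSM3.{u} := by
  intro hTV hPt G _ _ T P R L a w hT hr h hc he h16 ha hi hw hsq
  have hab : ∀ u ∈ O2 L, ∀ v ∈ O2 L, u * v = v * u := fun u hu v hv =>
    commutatorElement_eq_one_iff_mul_comm.1 (mem_bot.1
      (comm_mem_of_sq (V := ⊥) (fun b hb => mem_bot.2 (he b hb)) hu hv))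
  have hW : Zq L = O2 L := le_antisymm (Zq_le L) fun u hu =>
    mem_oZ.2 ⟨hu, mem_Ce.2 fun v hv => hab v hv u hu, by rw [sq, he u hu]⟩
  have haL : a ∉ O2 L := fun e => by
    rw [relIndex_eq_one.2 fun v hv => mem_C1.2 (hab a e v hv)] at hi
    omega
  have h2 : a * a ∈ O2 L := hsq ▸ commutator_le_left' (h.le.trans (self_le_normalizer_pCoreOf L))
    (commutator_mem_commutator hw ha)
  have h3 : a ∈ O2 P ∨ a ∈ O2 R := by
    by_contra hn
    rw [not_or] at hn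
    exact h.sq a ha hn.1 hn.2 h2
  rcases (hTV G T P R L h hc).2 a ha (hW ▸ hi) with ⟨p, tv⟩ | ⟨p, tv⟩
  · exact main hPt hT hr h hc he h16 haL h3 hw hsq tv
  · exact main hPt hT hr h.symm hc he h16 haL h3.symm hw hsq tv

end H18.DpSM3
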