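import Cfsg.Agent.H36.E7MSpec

/-! E7MAX (S5934), slot `PHI`: the map `φ : Q → V`. -/

set_option autoImplicit false

namespace H18.E7PHI

open H36.E7M Subgroup
open scoped commutatorElement

/-- `Q / ⟨z⟩` is abelian. -/
theorem exists_quot {Γ : Type} [Group Γ] (Q : Subgroup Γ) (z : Γ) (zz : z * z = 1)
    (cz : ∀ q ∈ Q, Commute q z) (cm : ∀ q ∈ Q, ∀ q' ∈ Q, ⁅q, q'⁆ = 1 ∨ ⁅q, q'⁆ = z) :
    ∃ (H : Type) (_ : CommGroup H) (π : Q →* H), ∀ q : Q, π q = 1 ↔ (q : Γ) = 1 ∨ (q : Γ) = z := by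
  let N : Subgroup Q :=
    { carrier := {q | (q : Γ) = 1 ∨ (q : Γ) = z}
      one_mem' := Or.inl rfl
      mul_mem' := by
        intro a b ha hb
        change (a : Γ) * b = 1 ∨ (a : Γ) * b = z
        rcases ha with ha | ha <;> rcases hb with hb | hb <;> rw [ha, hb] <;> simp [zz]
      inv_mem' := by
        rintro a (ha | ha)
        · left; simp [ha]
        · right; simp [ha, inv_eq_of_mul_eq_one_right zz] }
  have hN : N.Normal := ⟨by
    rintro a (ha | ha) g
    · left; simp [ha]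
    · right
      simp only [coe_mul, InvMemClass.coe_inv, ha]
      rw [(cz g g.2).eq, mul_inv_cancel_right]⟩
  refine ⟨Q ⧸ N, { (inferInstance : Group (Q ⧸ N)) with mul_comm := fun a b => ?_ },
    QuotientGroup.mk' N, fun q => QuotientGroup.eq_one_iff q⟩
  obtain ⟨a, rfl⟩ := QuotientGroup.mk_surjective a
  obtain ⟨b, rfl⟩ := QuotientGroup.mk_surjective b
  rw [← QuotientGroup.mk_mul, ← QuotientGroup.mk_mul, QuotientGroup.eq]
  have := cm _ (inv_mem b.2) _ (inv_mem a.2)
  change ((a * b)⁻¹ * (b * a) : Γ) = 1 ∨ ((a * b)⁻¹ * (b * a) : Γ) = z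
  simpa [commutatorElement_def, mul_assoc] using this

section Th

variable {H : Type} [CommGroup H] {n : ℕ} (a : Fin n → H)

/-- the product of the `a i` with `t i = 1` -/
def th (t : Fin n → ZMod 2) : H := ∏ i, a i ^ (t i).val

theorem th_zero : th a 0 = 1 := by simp [th]

theorem th_add (ha : ∀ i, a i * a i = 1) (s t : Fin n → ZMod 2) :
    th a (s + t) = th a s * th a t := by
  rw [th, th, th, ← Finset.prod_mul_distrib]
  refine Finset.prod_congr rfl fun i _ => ?_
  rw [Pi.add_apply, ZMod.val_add, ← pow_add, ← pow_eq_pow_mod _ (by rw [pow_two, ha])]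

theorem th_single (i : Fin n) : th a (Pi.single i 1) = a i := by
  rw [th, Finset.prod_eq_single i]
  · rw [Pi.single_eq_same, ZMod.val_one, pow_one]
  · intro j _ h; rw [Pi.single_eq_of_ne h]; simp
  · simp

end Th

theorem eb_ix (r s : Fin 126) : eb r (ix s) = if s = r then 1 else 0 := by
  unfold eb
  split_ifs with h
  · rw [h, Pi.single_eq_same]
  · exact Pi.single_eq_of_ne (fun e => h (Sum.inr_injective e)) _

theorem hT_ix (s : Fin 126) : hT (ix s) = 0 := by
  have : ∀ i, (Pi.single (ih i) 1 : LA) (ix s) = 0 := fun i =>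
    Pi.single_eq_of_ne (fun e => Sum.inr_ne_inl e) _
  simp only [hT, Pi.add_apply, this, add_zero]

theorem lo_inj {i j : Fin 32} : lo i = lo j ↔ i = j := by
  simp [lo, Fin.ext_iff]

theorem lo_ne (i : Fin 32) : lo i ≠ 0 := fun h => by
  have : i.val + 1 = 0 := congrArg Fin.val h
  omega
theorem lo_ne' (i : Fin 32) : lo i ≠ 125 := by
  have := i.2
  simp only [lo, ne_eq, Fin.ext_iff]
  change ¬ (i.val + 1 = 125)
  omega

theorem lev_lo (i : Fin 32) : lev (lo i) = -1 := by
  have := i.2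
  have h := lev_cases (lo i)
  have : ((lo i : Fin 126) : ℕ) = i + 1 := rfl
  omega

theorem e0_lo (i : Fin 32) : eb 0 (ix (lo i)) = 0 := by rw [eb_ix, if_neg (lo_ne i)]

theorem emb_lo (v : V) (j : Fin 32) : emb v (ix (lo j)) = v j := by
  simp [emb, Finset.sum_apply, eb_ix, lo_inj]

theorem emb_zero (v : V) : emb v (ix 0) = 0 := by
  simp [emb, Finset.sum_apply, eb_ix, (lo_ne _).symm]

theorem fil_e0 : Fil (-2) (eb 0) :=
  ⟨fun r h => by have := lev_cases r; omega, fun h => by omega⟩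

theorem jobPHI (fil : JobFIL) (lq : JobLQ) (sq : JobSQ) : JobPHI := by
  obtain ⟨f1, f2, f3, f4, f5⟩ := fil
  have add : ∀ q ∈ Q, ∀ q' ∈ Q, φ (q * q') = φ q + φ q' := fun q hq q' hq' => funext fun i => by
    have h1 := f1 q' hq' _ _ fil_e0
    have h2 := (f1 q hq _ _ h1).1 (lo i) (by rw [lev_lo]; omega)
    rw [map_sub] at h2
    simp only [Pi.sub_apply, e0_lo] at h2
    change ρ (q * q') (eb 0) _ = ρ q (eb 0) _ + ρ q' (eb 0) _
    rw [map_mul, Module.End.mul_apply]
    linear_combination h2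
  have one : φ 1 = 0 := funext fun i => by
    change ρ 1 (eb 0) _ = 0
    rw [map_one, Module.End.one_apply, e0_lo]
  have hz : φ z = 0 := funext fun i => by
    change ρ z (eb 0) _ = 0
    rw [f4, Pi.add_apply, Pi.add_apply, e0_lo, hT_ix, eb_ix, if_neg (lo_ne' i)]; simp
  have hx : ∀ i : Fin 32, φ (x (93 + i)) = Pi.single i 1 := fun i => funext fun j => by
    change ρ _ (eb 0) _ = _
    rw [(f5 i).1, Pi.add_apply, e0_lo, zero_add, eb_ix, Pi.single_apply]
    simp only [lo_inj]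
  have hm : ∀ i : Fin 32, x (93 + i) ∈ Q := fun i => x_mem_Q (by omega) (by have := i.2; omega)
  refine ⟨add, fun q hq => ⟨fun h => ?_, ?_⟩, fun v => ?_, hx, fun l hl q hq => funext fun i => ?_⟩
  · obtain ⟨H, _, π, hπ⟩ := exists_quot Q z (sq.1 125) lq.2.2.1 lq.2.2.2
    have ha : ∀ i : Fin 32, π ⟨_, hm i⟩ * π ⟨_, hm i⟩ = 1 := fun i => by
      rw [← map_mul]; exact (hπ _).2 (Or.inl (sq.1 _))
    have key : ∀ q, ∀ hq : q ∈ Q, th (fun i => π ⟨_, hm i⟩) (φ q) = π ⟨q, hq⟩ := by
      intro q hq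
      induction hq using closure_induction with
      | mem g hg =>
        obtain ⟨r, h1, h2, rfl⟩ := hg
        by_cases h3 : r = 125
        · subst h3
          rw [show φ (x 125) = 0 from hz, th_zero]
          exact ((hπ _).2 (Or.inr rfl)).symm
        · obtain ⟨i, rfl⟩ : ∃ i : Fin 32, r = 93 + i := ⟨⟨r - 93, by omega⟩, by simp; omega⟩
          rw [hx, th_single]
      | one => rw [one, th_zero]; exact (map_one π).symm
      | mul a b h1 h2 k1 k2 =>
        rw [add a h1 b h2, th_add _ ha, k1, k2, ← map_mul]; rfl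
      | inv a h1 k =>
        have := th_add _ ha (φ a⁻¹) (φ a)
        rw [← add _ (inv_mem h1) _ h1, inv_mul_cancel, one, th_zero, k] at this
        rw [eq_inv_of_mul_eq_one_left this.symm, ← map_inv]; rfl
    have := key q hq
    rw [h, th_zero] at this
    exact (hπ _).1 this.symm
  · rintro (rfl | rfl)
    exacts [one, hz]
  · rw [← Finset.univ_sum_single v]
    refine Finset.sum_induction _ (fun v => ∃ q ∈ Q, φ q = v) ?_ ⟨1, one_mem _, one⟩ fun i _ => ?_
    · rintro _ _ ⟨a, ha, rfl⟩ ⟨b, hb, rfl⟩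
      exact ⟨_, mul_mem ha hb, add a ha b hb⟩
    · have : ∀ c : ZMod 2, c = 0 ∨ c = 1 := by decide
      rcases this (v i) with h | h
      · exact ⟨1, one_mem _, by rw [one, h, Pi.single_zero]⟩
      · exact ⟨_, hm i, by rw [hx, h]⟩
  · have h1 := f1 q hq _ _ fil_e0
    have h2 : Fil 0 (ρ q (eb 0) - eb 0 - emb (φ q)) := ⟨fun r hr => by
      by_cases h0 : r = 0
      · subst h0
        rw [Pi.sub_apply, h1.1 0 (by decide), emb_zero, sub_zero]
      · obtain ⟨j, rfl⟩ : ∃ j, r = lo j := by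
          have := lev_cases r
          have h3 : (r : ℕ) ≠ 0 := fun e => h0 (Fin.ext e)
          exact ⟨⟨r - 1, by omega⟩, Fin.ext (by simp [lo]; omega)⟩
        rw [Pi.sub_apply, Pi.sub_apply, e0_lo, emb_lo, sub_zero]
        exact sub_self _, fun h => absurd h (lt_irrefl _)⟩
    have h3 := ((f2 l hl _ _).2 h2).1 (lo i) (by rw [lev_lo]; omega)
    rw [map_sub, map_sub, (f3 l hl).1] at h3
    simp only [Pi.sub_apply, e0_lo] at h3
    change ρ (l * q * l⁻¹) (eb 0) _ = ρ l (emb (φ q)) _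
    rw [map_mul, map_mul, Module.End.mul_apply, Module.End.mul_apply, (f3 _ (inv_mem hl)).1]
    linear_combination h3

end H18.E7PHI
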