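/- Standard subgroups of type `2·Ω₈⁺(2)`: the job `JobII` (blueprint `STDO8.md`). -/
import Cfsg.Agent.H11.E8Spec

set_option autoImplicit false
set_option synthInstance.maxSize 2048

open Matrix H11.E8

namespace H18.E8II

instance (S x : ℕ) : Decidable (inE S x) := inferInstanceAs (Decidable (_ ∧ _ ∧ _))

/-- the parity of a mask -/
def par (x : ℕ) : Bool :=
  Nat.testBit 0x6996966996696996966969966996966996696996699696696996966996696996 x

theorem par_xor : ∀ x < 256, ∀ y < 256, par (x ^^^ y) = xor (par x) (par y) := by decide +kernel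

theorem par_and (k : ℕ) {x y : ℕ} (hx : x < 256) (hy : y < 256) :
    par (k &&& (x ^^^ y)) = xor (par (k &&& x)) (par (k &&& y)) := by
  rw [Nat.and_xor_distrib_left]
  exact par_xor _ (lt_of_le_of_lt Nat.and_le_right hx) _ (lt_of_le_of_lt Nat.and_le_right hy)

theorem inE_zero (S : ℕ) : inE S 0 := ⟨by norm_num, by decide, fun _ => by decide⟩

theorem gen : ∀ S ∈ [3, 15, 23, 63], ∀ x < 256, inE S x → x = 0 ∨
    ∃ b ∈ [3, 6, 12, 24, 48, 96, 192], inE S b ∧ inE S (x ^^^ b) ∧ x ^^^ b < x := by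
  decide +kernel

theorem vals : ∀ p1 p2 p3 p4 p5 p6 p7 : Bool, ∃ k < 128, p1 = par (k &&& 3) ∧ p2 = par (k &&& 6) ∧
    p3 = par (k &&& 12) ∧ p4 = par (k &&& 24) ∧ p5 = par (k &&& 48) ∧ p6 = par (k &&& 96) ∧
    p7 = par (k &&& 192) := by decide +kernel

/-- additive functionals are given by masks -/
theorem rep {S : ℕ} (hS : S ∈ [3, 15, 23, 63]) (f : ℕ → Bool)
    (hf : ∀ x y, inE S x → inE S y → f (x ^^^ y) = xor (f x) (f y)) :
    ∃ k < 128, ∀ x, inE S x → f x = par (k &&& x) := by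
  obtain ⟨k, hk, h⟩ := vals (f 3) (f 6) (f 12) (f 24) (f 48) (f 96) (f 192)
  have hb : ∀ b ∈ [3, 6, 12, 24, 48, 96, 192], f b = par (k &&& b) := by
    simpa only [List.forall_mem_cons, List.not_mem_nil, false_imp_iff, implies_true,
      and_true] using h
  refine ⟨k, hk, fun x => ?_⟩
  induction x using Nat.strong_induction_on with
  | _ x ih =>
    intro hx
    rcases gen S hS x hx.1 hx with rfl | ⟨b, h1, h2, h3, h4⟩
    · have := hf 0 0 hx hx
      rw [Bool.xor_self] at this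
      rw [Nat.and_zero]; exact this
    · have e : x = (x ^^^ b) ^^^ b := by rw [Nat.xor_assoc, Nat.xor_self, Nat.xor_zero]
      rw [e, hf _ _ h3 h2, ih _ h4 h3, hb b h1, par_and k h3.1 h2.1]

/-- packing of bits -/
def pk (l : List Bool) : ℕ := l.foldr Nat.bit 0

theorem testBit_pk (l : List Bool) (r : ℕ) : (pk l).testBit r = l.getD r false := by
  induction l generalizing r with
  | nil => simp [pk]
  | cons b l ih =>
    cases r with
    | zero => exact Nat.testBit_bit_zero _ _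
    | succ r => exact (Nat.testBit_bit_succ _ _ _).trans (ih r)

def bs (S : ℕ) : List ℕ := if S = 15 then [3, 6, 12, 48, 96, 192] else [3, 6, 12, 24, 48, 96, 192]

def ky (k : ℕ) (l : List ℕ) : ℕ := pk (l.map fun y => par (k &&& y))

def UU (I : List (List ℕ)) (k0 k1 : ℕ) : Finset ℕ := (I.map (ky k0) ++ I.map (ky k1)).toFinset

def Ok (S x0 x1 : ℕ) (I : List (List ℕ)) : Prop :=
  ∀ k0 < 128, par (k0 &&& S) = true → par (k0 &&& x0) = true →
    ∀ k1 < 128, par (k1 &&& S) = true → par (k1 &&& x1) = true →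
      8 < (UU I k0 k1).card ∨ (8 = (UU I k0 k1).card ∧
        ∃ r < 7, ((UU I k0 k1).filter fun u => u.testBit r = true).card % 2 = 1)

instance (S x0 x1 : ℕ) (I : List (List ℕ)) : Decidable (Ok S x0 x1 I) := by
  unfold Ok; infer_instance

def Good (S x0 x1 : ℕ) (A : List ℕ) : Prop :=
  inE S S ∧ (inE S x0 ∧ x0 ≠ 0) ∧ (inE S x1 ∧ x1 ≠ 0) ∧ (∀ r < 7, inE S ((bs S).getD r 0)) ∧
  (∀ b ∈ bs S, inE S b) ∧
    ∀ a ∈ A, okA a = true ∧ act a S = S ∧ ∀ b ∈ bs S, inE S (act a b)

instance (S x0 x1 : ℕ) (A : List ℕ) : Decidable (Good S x0 x1 A) := by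
  unfold Good; infer_instance

def Dat (S : ℕ) : Prop := ∃ x0 x1 A, Good S x0 x1 A ∧ Ok S x0 x1 (A.map fun a => (bs S).map (act a))

theorem d3 : Dat 3 :=
  ⟨3, 60, [5237505, 7072520, 9781128, 11644353, 11644808, 14570689, 16405704, 16434824],
    by decide +kernel, by decide +kernel⟩

theorem d15 : Dat 15 :=
  ⟨3, 48, [9925825, 11761281, 13824720, 13825035, 14054040, 14054922, 14598234, 15917265,
    16146585], by decide +kernel, by decide +kernel⟩

theorem d23 : Dat 23 :=
  ⟨40, 60, [8031884, 8333892, 12305930, 13609505, 14599809, 15637664, 16205392, 16362248],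
    by decide +kernel, by decide +kernel⟩

theorem d63 : Dat 63 :=
  ⟨15, 192, [14424858, 14451948, 14498568, 14569555, 14599809, 16288083, 16361793, 16433690],
    by decide +kernel, by decide +kernel⟩

theorem data : ∀ S ∈ [3, 15, 23, 63], Dat S := by
  simp only [List.forall_mem_cons, List.not_mem_nil, false_imp_iff, implies_true, and_true]
  exact ⟨d3, d15, d23, d63⟩

theorem wt_par : ∀ x < 256, (wt x % 2 = 0 ↔ par x = false) := by decide +kernel

theorem wt_xor {x y : ℕ} (hx : x < 256) (hy : y < 256) (h1 : wt x % 2 = 0) (h2 : wt y % 2 = 0) :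
    wt (x ^^^ y) % 2 = 0 := by
  rw [wt_par _ (xor_lt hx hy), par_xor x hx y hy, (wt_par x hx).1 h1, (wt_par y hy).1 h2]; rfl

theorem inE_xor {S : ℕ} (x y : ℕ) (hx : inE S x) (hy : inE S y) : inE S (x ^^^ y) :=
  ⟨xor_lt hx.1 hy.1, wt_xor hx.1 hy.1 hx.2.1 hy.2.1, fun e => by
    rw [Nat.and_xor_distrib_right]
    exact wt_xor (lt_of_le_of_lt Nat.and_le_left hx.1) (lt_of_le_of_lt Nat.and_le_left hy.1)
      (hx.2.2 e) (hy.2.2 e)⟩

theorem card_bits : ∀ x < 256,
    (Finset.univ.filter fun j : Fin 8 => x.testBit j = true).card = wt x := by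
  decide +kernel

theorem exists_bit : ∀ x < 256, x ≠ 0 → ∃ j : Fin 8, x.testBit j = true := by decide +kernel

/-- the combinatorial core -/
theorem comb {S : ℕ} (hS : S ∈ [3, 15, 23, 63]) (θ : ℕ → ℕ) (lt : ∀ x, inE S x → θ x < 256)
    (add : ∀ x y, inE S x → inE S y → θ (x ^^^ y) = θ x ^^^ θ y) (hSS : θ S = 255)
    (inj : ∀ x, inE S x → θ x = 0 → x = 0) (ev : ∀ x, inE S x → wt (θ x) % 2 = 0)
    (mv : ∀ a, okA a = true → act a S = S → ∀ i : Fin 8, ∃ j : Fin 8, ∀ x, inE S x →
      inE S (act a x) → (θ (act a x)).testBit i = (θ x).testBit j) : False := by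
  obtain ⟨x0, x1, A, ⟨gS, g0, g1, gb, gb', gA⟩, ok⟩ := data S hS
  have θ0 : θ 0 = 0 := by
    have := add 0 0 (inE_zero S) (inE_zero S)
    rwa [Nat.xor_self, Nat.xor_self] at this
  choose k hk hr using fun i : Fin 8 => rep hS (fun x => (θ x).testBit i) fun x y hx hy => by
    simp only [add x y hx hy, Nat.testBit_xor]
  obtain ⟨i0, h0⟩ := exists_bit _ (lt _ g0.1) fun e => g0.2 (inj _ g0.1 e)
  obtain ⟨i1, h1⟩ := exists_bit _ (lt _ g1.1) fun e => g1.2 (inj _ g1.1 e)
  have hS' : ∀ i, par (k i &&& S) = true := fun i => by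
    rw [← hr i S gS, hSS]; revert i; decide
  let key : Fin 8 → ℕ := fun j => pk ((bs S).map fun b => (θ b).testBit j)
  have hm : ∀ i, ∀ a ∈ A, ∃ j, key j = ky (k i) ((bs S).map (act a)) := fun i a ha => by
    obtain ⟨a1, a2, a3⟩ := gA a ha
    obtain ⟨j, hj⟩ := mv a a1 a2 i
    refine ⟨j, congrArg pk ?_⟩
    rw [List.map_map]
    refine List.map_congr_left fun b hb => ?_
    rw [← hj b (gb' b hb) (a3 b hb)]
    exact hr i _ (a3 b hb)
  have sub : UU (A.map fun a => (bs S).map (act a)) (k i0) (k i1) ⊆ Finset.univ.image key := by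
    intro u hu
    simp only [UU, List.mem_toFinset, List.mem_append, List.mem_map, exists_exists_and_eq_and] at hu
    rcases hu with ⟨a, ha, rfl⟩ | ⟨a, ha, rfl⟩ <;>
      exact Finset.mem_image.2 ((hm _ a ha).imp fun j e => ⟨Finset.mem_univ _, e⟩)
  have le8 : (Finset.univ.image key).card ≤ 8 := Finset.card_image_le.trans (by simp)
  have le := Finset.card_le_card sub
  rcases ok _ (hk i0) (hS' i0) ((hr i0 _ g0.1).symm.trans h0) _ (hk i1) (hS' i1)
    ((hr i1 _ g1.1).symm.trans h1) with h | ⟨h, r, hr7, h'⟩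
  · omega
  · have e := Finset.eq_of_subset_of_card_le sub (by omega)
    have ki : Set.InjOn key (Finset.univ : Finset (Fin 8)) :=
      Finset.card_image_iff.1 (by rw [← e, ← h]; simp)
    rw [e, Finset.filter_image, Finset.card_image_of_injOn (ki.mono (by simp))] at h'
    have e2 : ∀ j, (key j).testBit r = (θ ((bs S).getD r 0)).testBit j := fun j => by
      rw [testBit_pk, ← List.getD_map (f := fun b => (θ b).testBit j), θ0, Nat.zero_testBit]
    simp only [e2] at h'
    rw [card_bits _ (lt _ (gb r hr7)), ev _ (gb r hr7)] at h'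
    exact absurd h' (by norm_num)

theorem jobII : JobII := by
  intro hWT S hS ψ add hdt inj hneg hact
  have z := inE_zero S
  have ψ0 : ψ 0 = 1 := left_eq_mul.1 (add 0 0 z z)
  obtain ⟨V, hV, hA⟩ := hWT (ψ '' {x | inE S x})
    (((Set.finite_lt_nat 256).subset fun x hx => hx.1).image ψ)
    (by rintro _ ⟨x, hx, rfl⟩; rw [← add x x hx hx, Nat.xor_self, ψ0])
    (by rintro _ ⟨x, hx, rfl⟩ _ ⟨y, hy, rfl⟩; rw [← add x y hx hy, ← add y x hy hx, Nat.xor_comm])
  have hU : IsUnit V.det := hV.isUnit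
  have canc : ∀ {B C : M8}, V * B = V * C → B = C := fun {B C} h => by
    simpa only [nonsing_inv_mul_cancel_left V _ hU] using congrArg (V⁻¹ * ·) h
  have : ∀ x, ∃ y, inE S x → y < 256 ∧ (ψ x).m * V = V * (ep y).m := fun x => by
    by_cases hx : inE S x
    · obtain ⟨y, h⟩ := hA _ ⟨x, hx, rfl⟩
      exact ⟨y, fun _ => h⟩
    · exact ⟨0, fun h => absurd h hx⟩
  choose θ hθ using this
  have gS : inE S S := (data S hS).elim fun _ h => h.elim fun _ h => h.elim fun _ h => h.1.1
  have xE := @inE_xor S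
  refine comb hS θ (fun x hx => (hθ x hx).1) (fun x y hx hy => ?_) ?_ (fun x hx h => ?_)
    (fun x hx => ?_) fun a h1 h2 i => ?_
  · refine ep_inj (hθ _ (xE x y hx hy)).1 (xor_lt (hθ x hx).1 (hθ y hy).1) (W.ext (canc ?_))
    rw [← (hθ _ (xE x y hx hy)).2, add x y hx hy, ep_xor, m_mul, m_mul, mul_assoc, (hθ y hy).2,
      ← mul_assoc, (hθ x hx).2, mul_assoc]
  · refine ep_inj (hθ _ gS).1 (by norm_num) (W.ext (canc ?_))
    rw [← (hθ _ gS).2, hneg]
    show neg.m * V = V * neg.m
    simp [m_neg]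
  · refine inj x hx (W.ext ?_)
    have := (hθ x hx).2
    rw [h, ep_zero, m_one, mul_one] at this
    simpa only [mul_nonsing_inv_cancel_right V _ hU, mul_nonsing_inv V hU, m_one] using
      congrArg (· * V⁻¹) this
  · have := congrArg det (hθ x hx).2
    rw [det_mul, det_mul, mul_comm V.det] at this
    have e : dt (ψ x) = dt (ep (θ x)) := mul_right_cancel₀ hV this
    rw [hdt x hx, dt_ep (hθ x hx).1] at e
    by_contra h
    rw [if_neg h] at e
    norm_num at e
  · obtain ⟨l, hl⟩ := hact a h1 h2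
    have hN : (V⁻¹ * (l.m * V)).det ≠ 0 := by
      rw [det_mul, det_mul]
      refine mul_ne_zero (isUnit_nonsing_inv_det V hU).ne_zero (mul_ne_zero (fun e => ?_) hV)
      have := dt_sq l
      rw [dt, e] at this
      norm_num at this
    obtain ⟨j, hj⟩ : ∃ j, (V⁻¹ * (l.m * V)) i j ≠ 0 := by
      by_contra! h
      exact hN (det_eq_zero_of_row_eq_zero i h)
    refine ⟨j, fun x hx hx' => ?_⟩
    have e : (ep (θ (act a x))).m * (V⁻¹ * (l.m * V)) = V⁻¹ * (l.m * V) * (ep (θ x)).m := by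
      refine canc ?_
      rw [← mul_assoc V, ← (hθ _ hx').2, mul_assoc _ V, mul_assoc V⁻¹,
        mul_nonsing_inv_cancel_left V _ hU, mul_nonsing_inv_cancel_left V _ hU, mul_assoc l.m,
        ← (hθ x hx).2, ← mul_assoc, ← mul_assoc, ← m_mul, ← m_mul, hl x hx, inv_mul_cancel_right]
    have e2 := congrFun (congrFun e i) j
    rw [m_ep, m_ep, diagonal_mul, mul_diagonal, mul_comm] at e2
    have e3 := mul_left_cancel₀ hj e2
    simp only [sg] at e3
    revert e3
    cases (θ (act a x)).testBit i <;> cases (θ x).testBit j <;> norm_num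

end H18.E8II
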