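import Cfsg.Agent.H42.IVSpec

/-! Tower IV (S3929), slot Par: the parameters. -/

set_option autoImplicit false

namespace H18.IVPar
open Subgroup H42.IV
universe u

variable {P : Type u} [Group P]

theorem comm (A : Subgroup P) [IsMulCommutative A] {x y : P} (hx : x ∈ A) (hy : y ∈ A) :
    x * y = y * x :=
  congrArg Subtype.val (mul_comm' (⟨x, hx⟩ : A) ⟨y, hy⟩)

/-- the norms form a subgroup -/
def T (A : Subgroup P) [hA : A.Normal] [IsMulCommutative A] (b : P) : Subgroup P where
  carrier := nrm A b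
  one_mem' := ⟨1, one_mem _, by group⟩
  mul_mem' := by
    rintro _ _ ⟨x, hx, rfl⟩ ⟨y, hy, rfl⟩
    refine ⟨x * y, mul_mem hx hy, ?_⟩
    have e := comm A hy (hA.conj_mem x hx b)
    calc x * y * (b * (x * y) * b⁻¹) = x * (y * (b * x * b⁻¹)) * (b * y * b⁻¹) := by group
      _ = x * (b * x * b⁻¹) * (y * (b * y * b⁻¹)) := by rw [e]; group
  inv_mem' := by
    rintro _ ⟨x, hx, rfl⟩
    refine ⟨x⁻¹, inv_mem hx, ?_⟩
    rw [comm A hx (hA.conj_mem x hx b)]
    group

theorem T_le (A : Subgroup P) [hA : A.Normal] [IsMulCommutative A] {b : P} (hb : b * b = 1) :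
    T A b ≤ A ⊓ centralizer ({b} : Set P) := by
  rintro _ ⟨x, hx, rfl⟩
  refine ⟨mul_mem hx (hA.conj_mem x hx b), ?_⟩
  have hi : b⁻¹ = b := inv_eq_of_mul_eq_one_right hb
  refine mem_centralizer_singleton_iff.2 ?_
  have e := comm A hx (hA.conj_mem x hx b)
  calc x * (b * x * b⁻¹) * b = x * b * x := by group
    _ = (b * b) * x * b⁻¹ * x := by rw [hb, hi]; group
    _ = b * ((b * x * b⁻¹) * x) := by group
    _ = b * (x * (b * x * b⁻¹)) := by rw [e]

theorem jobPar : JobPar.{u} := by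
  intro p2 P _ _ A _ _ b h hP hb hE h1
  have : Fact (Nat.Prime 2) := ⟨Nat.prime_two⟩
  obtain ⟨f, hf⟩ := hE
  obtain ⟨a, ha⟩ := (hP.to_subgroup (centralizer ({b} : Set P))).exists_card_eq
  obtain ⟨t, ht⟩ := (hP.to_subgroup (T A b)).exists_card_eq
  have hTle := T_le A hb
  obtain ⟨y, hy, hmax⟩ := Set.exists_max_image (nrm A b) orderOf (Set.toFinite _)
    ⟨1, (T A b).one_mem⟩
  obtain ⟨e, he⟩ := (IsPGroup.iff_orderOf.1 hP) y
  have hyT : y ∈ T A b := hy
  let Y : Subgroup P := A ⊓ centralizer ({b} : Set P)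
  have hYc : IsMulCommutative Y :=
    ⟨⟨fun x z => Subtype.ext (comm A x.2.1 z.2.1)⟩⟩
  let V : Subgroup Y :=
    { carrier := {v | v ^ 2 = 1}
      one_mem' := one_pow 2
      mul_mem' := fun {x z} hx hz => by
        have c : Commute x z := mul_comm' x z
        have hx' : x ^ 2 = 1 := hx
        have hz' : z ^ 2 = 1 := hz
        change (x * z) ^ 2 = 1
        rw [c.mul_pow, hx', hz', one_mul]
      inv_mem' := fun {x} hx => by
        have hx' : x ^ 2 = 1 := hx
        change x⁻¹ ^ 2 = 1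
        rw [inv_pow, hx', inv_one] }
  have hY : IsPGroup 2 Y := hP.to_subgroup Y
  obtain ⟨w, hw⟩ := (hY.to_subgroup V).exists_card_eq
  refine ⟨a, t, e, w, ⟨?_, ?_, ?_, ?_⟩, ha, ht, ?_, ?_⟩
  · have := card_dvd_of_le (hTle.trans inf_le_right)
    rw [ha, ht] at this
    exact (Nat.pow_dvd_pow_iff_le_right one_lt_two).1 this
  · have hd := card_dvd_of_injective f hf
    rw [ha, Nat.card_perm, Nat.card_eq_fintype_card, Fintype.card_fin] at hd
    have h2 := Nat.emultiplicity_two_factorial_lt (n := 2 * h) (by omega)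
    have h3 := (pow_dvd_iff_le_emultiplicity.1 hd).trans_lt h2
    exact_mod_cast h3
  · have := (T A b).orderOf_dvd_natCard hyT
    rw [he, ht] at this
    exact (Nat.pow_dvd_pow_iff_le_right one_lt_two).1 this
  · rcases Nat.eq_zero_or_pos e with h0 | h0
    · exact Or.inl h0
    · right
      have := p2 Y (Fin (2 * h)) (f.comp (inclusion inf_le_right)) V ⟨y, hTle hyT⟩ e w hY
        (hf.comp (inclusion_injective _)) hw (fun v hv => hv) (by rw [← he, orderOf_mk]) h0
      rwa [Nat.card_eq_fintype_card, Fintype.card_fin] at this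
  · intro v hv
    obtain ⟨j, hj⟩ := (IsPGroup.iff_orderOf.1 hP) v
    have := hmax v hv
    rw [hj, he] at this
    apply orderOf_dvd_iff_pow_eq_one.1
    rw [hj]
    exact pow_dvd_pow 2 ((Nat.pow_le_pow_iff_right one_lt_two).1 this)
  · rw [← hw, ← card_map_of_injective Y.subtype_injective]
    refine Set.ncard_le_ncard (t := (V.map Y.subtype : Set P)) ?_ (Set.toFinite _)
    rintro v ⟨h1, h2, h3⟩
    refine ⟨⟨v, h1, mem_centralizer_singleton_iff.2 ?_⟩, Subtype.ext h2, rfl⟩
    calc v * b = b * v * b⁻¹ * b := by rw [h3]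
      _ = b * v := by group

end H18.IVPar
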