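/- KG tower: counting pairs of involutions. -/
import Cfsg.Agent.H15.KGKit
import Cfsg.Agent.H83.BaerSuzuki

set_option autoImplicit false

namespace H18.KG

open Classical Finset H15.KG

universe u

variable {G : Type u} [Group G]

/-- The number of pairs from `T` with product `z`. -/
noncomputable def pc (T : Finset G) (z : G) : ℕ := #{u ∈ T | u⁻¹ * z ∈ T}

theorem sum_pc [Fintype G] (T : Finset G) : ∑ z, pc T z = #T * #T := by
  simp only [pc, card_filter]
  rw [sum_comm, ← smul_eq_mul, ← sum_const]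
  refine sum_congr rfl fun u _ => ?_
  rw [← card_filter]
  exact card_bij (fun z _ => u⁻¹ * z) (fun z hz => (mem_filter.1 hz).2)
    (fun _ _ _ _ e => mul_left_cancel e) fun v hv => ⟨u * v, by simpa using hv, by simp⟩

theorem pc_one {T : Finset G} (h : ∀ u ∈ T, u * u = 1) : pc T 1 = #T := by
  rw [pc, filter_true_of_mem fun u hu => ?_]
  rwa [mul_one, inv_eq_of_mul_eq_one_right (h u hu)]

theorem pc_le [Finite G] {T : Finset G} (h : ∀ u ∈ T, u * u = 1) (z : G) : pc T z ≤ cc z := by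
  have k : ∀ u ∈ T, u⁻¹ * z ∈ T → u⁻¹ * z * u = z⁻¹ := fun u h1 h2 => by
    have := h _ h2
    rw [inv_eq_of_mul_eq_one_right (h u h1)] at this ⊢
    exact eq_inv_of_mul_eq_one_left (by rw [← this]; group)
  rcases ({u ∈ T | u⁻¹ * z ∈ T} : Finset G).eq_empty_or_nonempty with e | ⟨v, hv⟩
  · rw [pc, e]; exact Nat.zero_le _
  · rw [pc, ← Nat.card_eq_finsetCard]
    refine Nat.card_le_card_of_injective (fun u => ⟨u * v⁻¹, ?_⟩) fun u w e =>
      Subtype.ext (mul_right_cancel (congrArg Subtype.val e))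
    have a := k _ (mem_filter.1 u.2).1 (mem_filter.1 u.2).2
    rw [← k _ (mem_filter.1 hv).1 (mem_filter.1 hv).2] at a
    rw [Subgroup.mem_centralizer_singleton_iff]
    calc u * v⁻¹ * z = u * (v⁻¹ * z * v) * v⁻¹ := by group
      _ = _ := by rw [← a]; group

theorem le_pc [Finite G] {T : Finset G} {t z : G} (h1 : t * t = 1) (h2 : t * z * t⁻¹ = z⁻¹)
    (h : ∀ w ∈ Subgroup.zpowers z, t * w ∈ T) : orderOf z ≤ pc T z := by
  rw [pc, ← Nat.card_eq_finsetCard, ← Nat.card_zpowers]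
  refine Nat.card_le_card_of_injective (fun w => ⟨t * w, mem_filter.2 ⟨h _ w.2, ?_⟩⟩) fun u w e =>
    Subtype.ext (mul_left_cancel (congrArg Subtype.val e))
  obtain ⟨w, k, rfl⟩ := w
  have := h _ (mul_mem (Subgroup.zpow_mem_zpowers z k) (Subgroup.mem_zpowers z))
  have e : t * z ^ k * t⁻¹ = (z ^ k)⁻¹ := by rw [← conj_zpow, h2, inv_zpow]
  convert this using 1
  simp only
  rw [mul_inv_rev, ← e, inv_eq_of_mul_eq_one_right h1, mul_assoc (t * z ^ k), h1]; group

theorem conj_of_odd {t z : G} (h2 : t * z * t⁻¹ = z⁻¹) (ho : Odd (orderOf z)) {w : G}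
    (hw : w ∈ Subgroup.zpowers z) : IsConj t (t * w) := by
  obtain ⟨k, rfl⟩ := hw
  obtain ⟨m, hm⟩ := ho
  have e : ∀ l : ℤ, t * z ^ l * t⁻¹ = (z ^ l)⁻¹ := fun l => by rw [← conj_zpow, h2, inv_zpow]
  have a : z ^ (2 * (m : ℤ) + 1) = 1 := by
    have := pow_orderOf_eq_one z
    rw [hm] at this
    exact_mod_cast this
  refine isConj_iff.2 ⟨(z ^ (k * (m + 1)))⁻¹, ?_⟩
  simp only
  nth_rewrite 1 [← e]
  have b : z ^ k = z ^ (k * (m + 1)) * z ^ (k * (m + 1)) := by
    rw [← zpow_add, show k * (m + 1) + k * (m + 1) = k + (2 * m + 1) * k by ring, zpow_add,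
      zpow_mul z (2 * m + 1), a]; simp
  conv_rhs => rw [b]
  group

theorem card_inv [Fintype G] : #{x : G | orderOf x = 2} = (dat G).m := by
  rw [card_filter, sum_class _ fun x y h => by rw [ord_conj h], Dat.m, sum_filter]
  simp only [orderOf_one, dat, mul_ite, mul_one, mul_zero]
  rw [if_neg (by decide), zero_add]
  exact sum_congr rfl fun i _ => by congr

theorem sq_inv [Fintype G] : ∀ u ∈ ({x : G | orderOf x = 2} : Finset G), u * u = 1 := fun u hu => by
  rw [← sq, ← (mem_filter.1 hu).2, pow_orderOf_eq_one]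

theorem jobUp : JobUp.{u} := by
  intro G _ _
  have := Fintype.ofFinite G
  rw [Dat.Up, ← card_inv, ← sum_pc, ← card_cl, Nat.add_sub_cancel]
  have h := sum_class (fun z : G => if z = 1 then #{x : G | orderOf x = 2} else cc z) fun x y h => by
    by_cases e : x = 1
    · subst e; rw [isConj_one_right.1 h]
    · rw [if_neg e, if_neg fun k : y = 1 => e (isConj_one_left.1 (k ▸ h)), cc_conj h]
  simp only [if_true, rep_ne, if_false, Nat.div_mul_cancel (cc_dvd _), sum_const, card_univ,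
    smul_eq_mul] at h
  refine le_trans (sum_le_sum fun z _ => ?_) h.le
  split_ifs with e
  · rw [e, pc_one sq_inv]
  · exact pc_le sq_inv z

theorem jobBs : JobBs.{u} := by
  intro G _ _ _ hG i hi
  have := Fintype.ofFinite G
  have h1 : rep i * rep i = 1 := by rw [← sq, ← (hi : orderOf (rep i) = 2), pow_orderOf_eq_one]
  obtain ⟨z, -, -, hp, h2, h3⟩ := H83.exists_inverted_odd_prime h1 fun h => by
    rcases (Subgroup.normalClosure_normal (s := {rep i})).eq_bot_or_eq_top with e | e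
    · exact rep_ne i (Subgroup.mem_bot.1 (e ▸ Subgroup.subset_normalClosure rfl))
    · rw [e] at h
      have := (h.of_equiv Subgroup.topEquiv).isNilpotent
      exact hG ⟨⟨IsSimpleGroup.comm_iff_isSolvable.2 inferInstance⟩⟩
  have hz : z ≠ 1 := fun e => hp.ne_one (by rw [e, orderOf_one])
  obtain ⟨j, hj⟩ := exists_rep hz
  obtain ⟨a1, a2⟩ := p1_of_pow (x := rep j) (e := 0) hp (by rw [zero_add, pow_one, ord_conj hj])
  refine ⟨j, a2, (lt_of_le_of_ne hp.two_le h2.symm).trans_eq a1.symm, ?_⟩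
  change Nat.card G / cc (rep i) + p1 (rep j) * (Nat.card G / cc (rep j)) ≤
    Nat.card G / cc (rep i) * (Nat.card G / cc (rep i))
  have hT : ∀ u ∈ ({y | IsConj (rep i) y} : Finset G), u * u = 1 := fun u hu => by
    rw [← sq, ← (hi : orderOf (rep i) = 2), ord_conj (mem_filter.1 hu).2, pow_orderOf_eq_one]
  rw [a1, ← card_class, ← card_class, ← sum_pc, ← add_sum_erase _ _ (mem_univ 1), pc_one hT,
    add_le_add_iff_left, mul_comm, ← smul_eq_mul]
  refine (card_nsmul_le_sum _ _ _ fun y hy => ?_).trans (sum_le_sum_of_subset fun y hy =>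
    mem_erase.2 ⟨fun e => rep_ne j (isConj_one_left.1 (e ▸ (mem_filter.1 hy).2)), mem_univ _⟩)
  have hy := hj.trans (mem_filter.1 hy).2
  rw [ord_conj hy]
  obtain ⟨g, rfl⟩ := isConj_iff.1 hy
  have h4 : g * rep i * g⁻¹ * (g * z * g⁻¹) * (g * rep i * g⁻¹)⁻¹ = (g * z * g⁻¹)⁻¹ := by
    rw [show (g * z * g⁻¹)⁻¹ = g * z⁻¹ * g⁻¹ by group, ← h3]; group
  refine le_pc (t := g * rep i * g⁻¹) (by rw [conj_mul, h1]; group)
    h4 fun w hw => mem_filter.2 ⟨mem_univ _, (isConj_iff.2 ⟨g, rfl⟩).trans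
      (conj_of_odd h4 (ord_conj hy ▸ hp.odd_of_ne_two h2) hw)⟩

end H18.KG
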