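import Cfsg.Agent.H52.RCSpec
import Cfsg.Agent.H14.FStar
import Cfsg.Agent.H2.PrimeCore
import Cfsg.Agent.H18.PiCore
import Cfsg.Agent.S1265

/-! Tower RC (S3860), slot R1a: a component exists. -/

set_option autoImplicit false

namespace H18.RCR1a
open Subgroup Cfsg H52.RC
universe u

theorem qs_of {G : Type u} [Group G] [Finite G] (ka : KA.{u}) (ho : oddCore G = ⊥)
    {L : Subgroup G} (hL : IsComponent L) : QS L := by
  refine ⟨hL.2, ?_⟩
  have h0 : pPrimeCore 2 L = ⊥ := by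
    rw [H2.pPrimeCore_eq_subgroupOf_of_isSubnormal hL.1]
    have : pPrimeCore 2 G = ⊥ := ho
    rw [this, bot_subgroupOf]
  obtain ⟨-, -, h3, -, h5, -⟩ := ka L
  rw [h5]
  intro w hw
  obtain ⟨i, j, hi, hj, e⟩ := h3 w
  have hc : zpowers (w ^ j) ≤ center L := zpowers_le_of_mem (pow_mem hw j)
  have : (zpowers (w ^ j)).Normal := ⟨fun n hn g => by
    have := (mem_center_iff.1 (hc hn) g)
    rw [this, mul_inv_cancel_right]; exact hn⟩
  have hle : zpowers (w ^ j) ≤ pPrimeCore 2 L :=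
    H2.le_pPrimeCore (by rw [Nat.card_zpowers]; exact Nat.coprime_two_right.2 hj)
  have h1 : w ^ j = 1 := by
    have := hle (mem_zpowers _)
    rwa [h0, mem_bot] at this
  rw [h1, mul_one] at e
  rw [← e]; exact hi

theorem jobR1a : JobR1a.{u} := by
  intro ka kb lx G _ _ m hH ho hn
  have : Fact (Nat.Prime 2) := ⟨Nat.prime_two⟩
  by_contra hcon
  have hlay : layer G = ⊥ := by
    rw [layer, sSup_eq_bot]
    intro K hK
    exact absurd ⟨K, hK, qs_of ka ho hK⟩ hcon
  have hF : generalizedFittingSubgroup G = pCore 2 G := H14.fstar_eq_pCore_of hlay ho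
  apply hn
  intro x _ g _ hx hg
  by_contra hx1
  obtain ⟨-, -, -, hT⟩ := kb G m hH x hx hx1 ⟨g, hg⟩
  obtain ⟨T, -, hT⟩ := hT ⊥ IsPGroup.of_bot bot_le
  have hp : IsPGroup 2 (pCore 2 G) := H18.isPGroup_pCore 2
  have hnn : normalizer ((pCore 2 G : Subgroup G) : Set G) = ⊤ := normalizer_eq_top _
  have hc := lx G m hH x T (pCore 2 G) hx hx1 hT hp (by rw [hnn]; trivial) (by rw [hnn]; exact le_top)
  have hxm : x ∈ pCore 2 G := by
    rw [← hF]
    apply Cfsg.Agent.S1265.result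
    rw [hF, mem_centralizer_iff]
    intro q hq
    exact (hc q hq).eq
  exact hx1 (eq_one_of_P2 (((ka G).2.2.2.2.1 _).1 hp x hxm) hx)

end H18.RCR1a
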