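import Cfsg.Agent.H30.SQSpec

/-! Tower SQ (S4132), slot `Sol`. -/

set_option autoImplicit false

namespace H18.SQSol

open Subgroup
open scoped commutatorElement

universe u

theorem omega_one {G : Type u} [Group G] [Finite G] {H P A : Subgroup G} (hA : A ≠ ⊥)
    (h2 : IsPGroup 2 A) (hc : ∀ a ∈ A, ∀ b ∈ A, a * b = b * a)
    (hn : ∀ f ∈ A, ∀ h ∈ H, h * f * h⁻¹ ∈ P → h * f * h⁻¹ ∈ A) :
    ∃ E : Subgroup G, E ≤ A ∧ E ≠ ⊥ ∧ IsMulCommutative E ∧ (∀ f ∈ E, f * f = 1) ∧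
      ∀ f ∈ E, ∀ h ∈ H, h * f * h⁻¹ ∈ P → h * f * h⁻¹ ∈ E := by
  let E : Subgroup G :=
    { carrier := {f | f ∈ A ∧ f * f = 1}
      one_mem' := ⟨one_mem _, mul_one _⟩
      mul_mem' := fun {a b} ha hb => ⟨mul_mem ha.1 hb.1, by
        rw [mul_assoc, ← mul_assoc b, ← hc a ha.1 b hb.1, mul_assoc, hb.2, mul_one, ha.2]⟩
      inv_mem' := fun {a} ha => ⟨inv_mem ha.1, by rw [← mul_inv_rev, ha.2, inv_one]⟩ }
  refine ⟨E, fun f hf => hf.1, ?_, ⟨⟨fun a b => Subtype.ext (hc _ a.2.1 _ b.2.1)⟩⟩,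
    fun f hf => hf.2, fun f hf h hh k => ⟨hn f hf.1 h hh k, by
      rw [conj_mul, hf.2, mul_one, mul_inv_cancel]⟩⟩
  have := Fact.mk Nat.prime_two
  have hN : Nontrivial A := (nontrivial_iff_ne_bot A).2 hA
  obtain ⟨n, h0, hn⟩ := h2.nontrivial_iff_card.1 hN
  obtain ⟨x, hx⟩ := exists_prime_orderOf_dvd_card' (G := A) 2 (hn ▸ dvd_pow_self 2 h0.ne')
  have h1 : (x : G) ∈ E := ⟨x.2, by
    rw [← coe_mul, ← pow_two, ← hx, pow_orderOf_eq_one, coe_one]⟩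
  intro h
  rw [h, mem_bot, OneMemClass.coe_eq_one] at h1
  rw [h1, orderOf_one] at hx
  omega

theorem jobSol : H30.SQ.JobSol.{u} := by
  classical
  intro G _ _ H P V hH hPH hP _ hVP hV hD
  let D : ℕ → Subgroup G := fun k => (derivedSeries H k).map H.subtype
  have hs : ∀ k, D (k + 1) = ⁅D k, D k⁆ := fun k => map_commutator _ _ _
  have h0 : D 0 = H := by simp [D, ← MonoidHom.range_eq_map]
  have hnorm : ∀ k, ∀ f ∈ D k, ∀ h ∈ H, h * f * h⁻¹ ∈ D k := by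
    rintro k _ ⟨f, hf, rfl⟩ h hh
    exact ⟨_, (derivedSeries_normal H k).conj_mem f hf ⟨h, hh⟩, rfl⟩
  have hle : ∀ k, D (k + 1) ≤ D k := fun k => by
    rw [hs]
    exact commutator_le.2 fun a ha b hb =>
      mul_mem (mul_mem (mul_mem ha hb) (inv_mem ha)) (inv_mem hb)
  have hanti : Antitone D := antitone_nat_of_succ_le hle
  have hex : ∃ k, P ⊓ D (k + 1) = ⊥ := by
    obtain ⟨m, hm⟩ := hH.solvable
    refine ⟨m, eq_bot_iff.2 (inf_le_right.trans ((hle m).trans ?_))⟩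
    simp [D, hm]
  have cm : ∀ k, P ⊓ D (k + 1) = ⊥ → ∀ a ∈ D k, ∀ b ∈ D k, ⁅a, b⁆ ∈ P → ⁅a, b⁆ = 1 :=
    fun k hk a ha b hb h => by
      rw [← mem_bot, ← hk, hs]
      exact ⟨h, commutator_mem_commutator ha hb⟩
  have cP : ∀ a ∈ P, ∀ b ∈ P, ⁅a, b⁆ ∈ P := fun a ha b hb =>
    mul_mem (mul_mem (mul_mem ha hb) (inv_mem ha)) (inv_mem hb)
  have hk := Nat.find_spec hex
  rcases h : Nat.find hex with _ | k
  · rw [h] at hk
    have cm0 := cm 0 hk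
    rw [h0] at cm0
    refine omega_one hV (hP.to_le hVP) (fun a ha b hb => commutatorElement_eq_one_iff_mul_comm.1
      (cm0 a (hPH (hVP ha)) b (hPH (hVP hb)) (cP a (hVP ha) b (hVP hb)))) fun f hf g hg k => ?_
    have := cm0 g hg f (hPH (hVP hf)) (mul_mem k (inv_mem (hVP hf)))
    rw [commutatorElement_eq_one_iff_mul_comm.1 this, mul_inv_cancel_right]
    exact hf
  · rw [h] at hk
    obtain ⟨E, e1, e2⟩ := omega_one (H := H) (P := P) (Nat.find_min hex (m := k) (by omega))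
      (hP.to_le inf_le_left) (fun a ha b hb => commutatorElement_eq_one_iff_mul_comm.1
        (cm _ hk a ha.2 b hb.2 (cP a ha.1 b hb.1))) fun f hf g hg k => ⟨k, hnorm _ f hf.2 g hg⟩
    refine ⟨E, fun f hf => hD f (e1 hf).1 ?_, e2⟩
    rw [← h0, ← hs]
    exact hanti (by omega) (e1 hf).2

end H18.SQSol
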