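import Cfsg.Agent.H52.SimXSSpec

/-! # S3694, tower SIM, chapter XS: job E3 -/

set_option autoImplicit false

namespace H18.XS

open Subgroup Cfsg H98 Matrix H0.Sim H52.XS
open scoped commutatorElement

theorem exists_E3 {G : Type} [Group G] [Finite G] (Z Q E : Subgroup G) (p : ℕ) (pp : p.Prime)
    (hZ : Z = E ⊓ center G) (EQ : E ≤ Q) (pQ : ∀ y ∈ Q, ∃ k : ℕ, y ^ p ^ k ∈ Z) {c : G}
    (cQ : c ∈ Q) (cE : c ∈ centralizer (E : Set G)) (cZ : c ∉ Z) :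
    ∃ E₃ : Subgroup G, Z ≤ E₃ ∧ ¬ E₃ ≤ Z ∧ E₃ ≤ Q ∧ E₃ ≤ centralizer (E : Set G) ∧
      (∀ a ∈ E₃, a ^ p ∈ Z) ∧ (∀ a ∈ E₃, ∀ b ∈ E₃, ⁅a, b⁆ ∈ Z) ∧
      ∀ α : G ≃* G, Q.map α.toMonoidHom = Q → E.map α.toMonoidHom = E →
        E₃.map α.toMonoidHom = E₃ := by
  have : Fact p.Prime := ⟨pp⟩
  have Zc : Z ≤ center G := hZ ▸ inf_le_right
  have ZE : Z ≤ E := hZ ▸ inf_le_left
  have : Z.Normal := ⟨fun z hz g => by
    rw [mem_center_iff.1 (Zc hz) g, mul_inv_cancel_right]; exact hz⟩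
  let π : G →* G ⧸ Z := QuotientGroup.mk' Z
  have hπ : ∀ x, π x = 1 ↔ x ∈ Z := fun x => QuotientGroup.eq_one_iff x
  have hc : ∀ x y, Commute (π x) (π y) ↔ ⁅x, y⁆ ∈ Z := fun x y => by
    rw [← hπ, map_commutatorElement, commutatorElement_eq_one_iff_commute]
  set D : Subgroup G := Q ⊓ centralizer (E : Set G) with hD
  have ZD : Z ≤ D := le_inf (ZE.trans EQ) (Zc.trans (center_le_centralizer _))
  let E₃ : Subgroup G :=
    { carrier := {x | x ∈ D ∧ (∀ y ∈ D, Commute (π x) (π y)) ∧ π x ^ p = 1}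
      mul_mem' := fun {a b} ha hb => ⟨mul_mem ha.1 hb.1, fun y hy => by
        rw [map_mul]; exact (ha.2.1 y hy).mul_left (hb.2.1 y hy), by
        rw [map_mul, (ha.2.1 b hb.1).mul_pow, ha.2.2, hb.2.2, one_mul]⟩
      one_mem' := ⟨one_mem _, fun y _ => by rw [map_one]; exact Commute.one_left _, by
        rw [map_one, one_pow]⟩
      inv_mem' := fun {a} ha => ⟨inv_mem ha.1, fun y hy => by
        rw [map_inv]; exact (ha.2.1 y hy).inv_left, by rw [map_inv, inv_pow, ha.2.2, inv_one]⟩ }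
  have mem : ∀ x, x ∈ E₃ ↔ x ∈ D ∧ (∀ y ∈ D, ⁅x, y⁆ ∈ Z) ∧ x ^ p ∈ Z := fun x => by
    show x ∈ D ∧ (∀ y ∈ D, Commute (π x) (π y)) ∧ π x ^ p = 1 ↔ _
    simp only [hc, ← map_pow, hπ]
  refine ⟨E₃, fun z hz => ?_, ?_, fun x hx => hx.1.1, fun x hx => hx.1.2,
    fun a ha => ((mem a).1 ha).2.2, fun a ha b hb => ((mem a).1 ha).2.1 b hb.1, fun α hQ hE => ?_⟩
  · have e : π z = 1 := (hπ z).2 hz
    exact ⟨ZD hz, fun y _ => by rw [e]; exact Commute.one_left _, by rw [e, one_pow]⟩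
  · have hp : IsPGroup p (D.map π) := by
      rintro ⟨_, y, hy, rfl⟩
      obtain ⟨k, hk⟩ := pQ y hy.1
      exact ⟨k, Subtype.ext (by
        show π y ^ p ^ k = 1
        rw [← map_pow, (hπ _).2 hk])⟩
    · have : Nontrivial (D.map π) := ⟨⟨π c, mem_map_of_mem π ⟨cQ, cE⟩⟩, 1, fun e =>
        cZ ((hπ c).1 (congrArg Subtype.val e))⟩
      have := hp.center_nontrivial
      have hp' : IsPGroup p (center (D.map π)) := hp.to_subgroup _
      obtain ⟨k, hk0, hk⟩ := hp'.nontrivial_iff_card.1 this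
      obtain ⟨w, hw⟩ := exists_prime_orderOf_dvd_card' (G := center (D.map π)) p
        (hk ▸ dvd_pow_self p hk0.ne')
      obtain ⟨⟨_, x, hx, rfl⟩, hxc⟩ := w
      intro hle
      have h1 : x ∈ E₃ := by
        refine ⟨hx, fun y hy => ?_, ?_⟩
        · exact (congrArg Subtype.val
            (mem_center_iff.1 hxc ⟨π y, mem_map_of_mem π hy⟩)).symm
        · have h2 := pow_orderOf_eq_one (⟨⟨π x, x, hx, rfl⟩, hxc⟩ : center (D.map π))
          rw [hw] at h2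
          exact congrArg (fun t : center (D.map π) => ((t : D.map π) : G ⧸ Z)) h2
      have h3 : (⟨⟨π x, x, hx, rfl⟩, hxc⟩ : center (D.map π)) = 1 :=
        Subtype.ext (Subtype.ext ((hπ x).2 (hle h1)))
      rw [h3, orderOf_one] at hw
      exact pp.one_lt.ne hw
  · have fw : ∀ {Y : Subgroup G}, Y.map α.toMonoidHom = Y → ∀ x ∈ Y, α x ∈ Y :=
      fun h x hx => h ▸ mem_map_of_mem α.toMonoidHom hx
    have bw : ∀ {Y : Subgroup G}, Y.map α.toMonoidHom = Y → ∀ y ∈ Y, ∃ x ∈ Y, α x = y :=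
      fun h y hy => by rw [← h] at hy; exact hy
    have aZ : ∀ z ∈ Z, α z ∈ Z := fun z hz => by
      rw [hZ]
      refine ⟨fw hE z (ZE hz), mem_center_iff.2 fun g => ?_⟩
      obtain ⟨g, rfl⟩ := α.surjective g
      rw [← map_mul, ← map_mul, mem_center_iff.1 (Zc hz) g]
    have aD : ∀ x ∈ D, α x ∈ D := fun x hx => ⟨fw hQ x hx.1, fun e he => by
      obtain ⟨e, he', rfl⟩ := bw hE e he
      rw [← map_mul, ← map_mul, hx.2 e he']⟩
    have hDD : D.map α.toMonoidHom = D :=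
      eq_of_le_of_card_ge (by rintro _ ⟨x, hx, rfl⟩; exact aD x hx)
        (card_map_of_injective α.injective).ge
    refine eq_of_le_of_card_ge ?_ (card_map_of_injective α.injective).ge
    rintro _ ⟨x, hx, rfl⟩
    obtain ⟨h1, h2, h3⟩ := (mem x).1 hx
    refine (mem _).2 ⟨aD x h1, fun y hy => ?_, ?_⟩
    · obtain ⟨y, hy', rfl⟩ := bw hDD y hy
      have := aZ _ (h2 y hy')
      rwa [map_commutatorElement] at this
    · have := aZ _ h3
      rwa [map_pow] at this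

theorem jobE3 : JobE3 := by
  intro th n F _ _ u q p Θ H Q E h c cQ cE cZ
  have hZ : Zg n F u q = E ⊓ center (GL (Fin n) F) :=
    le_antisymm (le_inf h.ZE inf_le_right)
      (inf_le_inf_right _ (h.EQ.trans (h.QH.trans h.HG)))
  obtain ⟨E₃, h1, h2, h3, h4, h5, h6, h7⟩ :=
    exists_E3 (Zg n F u q) Q E p h.pp hZ h.EQ h.pQ cQ cE cZ
  refine ⟨E₃, h1, h2, h3, h4, fun j hj => ?_, h5, h6⟩
  obtain ⟨α, hα⟩ := (th n F j).2.2.2.2.2
  exact (hα E₃).2 (h7 α ((hα Q).1 (h.ivQ j hj)) ((hα E).1 (h.ivE j hj)))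

end H18.XS
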