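/- T3 tower (row S5228), slot L1. -/
import Cfsg.Agent.H11.T3Spec

set_option autoImplicit false
set_option linter.unusedSectionVars false
set_option linter.unusedSimpArgs false
set_option linter.unusedVariables false
set_option linter.unnecessarySeqFocus false

open Subgroup H11.T3 H11.T3.Co
open H90.RF (cm Au Pr Ok cm_eq_one mem_nor conj_eq_cm)
open H90.U5 (Bq)

namespace H18.T3L1

variable {E M : Subgroup Co} {s m u : Co} {β : Co → Co}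

theorem cm_mem (hs : s ∈ E) (hm : m ∈ E) : cm s m ∈ E :=
  mul_mem (inv_mem hm) (mul_mem (mul_mem hs hm) (inv_mem hs))

theorem cen1 (h : Bq 3 zA 1 E M) (hs : s ∈ E) (hm : m ∈ M) : cm s m ∈ sZ1 := (h.cen s).1 hs m hm

theorem Z2_E (h : Bq 3 zA 1 E M) : sZ2 ≤ E := h.le.trans h.ME

theorem cube (h : Bq 3 zA 1 E M) (hβ : Ok zA 1 E β) (hu : u ∈ sZ2) : β u ^ 3 = 1 := by
  rw [← hβ.1.pow (Z2_E h hu), cb_C4 (D2_le_C4 (Z4_le_D2 (Z3_le_Z4 (Z2_le_Z3 hu)))), hβ.1.one]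

theorem eq_one (hs : s ∈ sZ1) (hj : s.j = 0) : s = 1 := by
  obtain ⟨p0, p1, p2, p3, p4, p5, p6, p7, p8⟩ := hs
  ext <;> simp [*]

theorem cm_E1Z3 (hs : s.a = 0) (hm : m ∈ sZ3) : cm s m ∈ sZ1 := by
  obtain ⟨p0, p1, p2, p3, p4, p5, p6⟩ := hm
  simp [mem_sZ1, cm_b, cm_a, cm_d, cm_c, cm_e, cm_f, cm_g, cm_h, cm_i, *]

theorem cm_Z3E1 (hs : s ∈ sZ3) (hm : m.a = 0) : cm s m ∈ sZ1 := by
  obtain ⟨p0, p1, p2, p3, p4, p5, p6⟩ := hs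
  simp [mem_sZ1, cm_b, cm_a, cm_d, cm_c, cm_e, cm_f, cm_g, cm_h, cm_i, *]

theorem cm_C4C4 (hs : s ∈ sC4) (hm : m ∈ sC4) : cm s m ∈ sZ1 := by
  obtain ⟨p0, p1, p2, p3⟩ := hs
  obtain ⟨q0, q1, q2, q3⟩ := hm
  simp [mem_sZ1, cm_b, cm_a, cm_d, cm_c, cm_e, cm_f, cm_g, cm_h, cm_i, *]

theorem xg_Z3 (m : Co) : cm (xg 1) m ∈ sZ3 := by
  simp [mem_sZ3, cm_b, cm_a, cm_d, cm_c, cm_e, cm_f, cm_g, xg]

theorem xg_h (m : Co) : (cm (xg 1) m).h = -m.b := by simp [cm_h, xg]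

theorem xg_i (hm : m.a = 0) : (cm (xg 1) m).i = -m.d := by simp [cm_i, xg, hm]

theorem le_E2 (h : Bq 3 zA 1 E M) : M ≤ sE2 := h.gen_le fun β hβ u hu hm => by
  by_contra hb
  have hb : (β u).b ≠ 0 := hb
  have ha : (β u).a = 0 := by simpa [cb_e, hb] using congrArg Co.e (cube h hβ hu)
  have hE : ∀ s ∈ E, s.a = 0 := fun s hs => by simpa [cm_d, ha, hb] using (cen1 h hs hm).2.2.1
  have h3 : sZ3 ≤ E := fun s hs => (h.cen s).2 fun m hm => cm_Z3E1 hs (hE m (h.ME hm))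
  have k := h.red (E ⊓ centralizer E) (le_inf (Z1_le_Z2.trans (Z2_E h)) fun z hz s _ => cm_eq_one.1 (cm_Z1 s hz))
    inf_le_left (fun γ hγ c hc => ⟨hγ.1.mem c hc.1, fun s hs => ?_⟩) (xg 1) (mem_nor fun c _ => h3 (xg_Z3 c))
    (fun m hm => ⟨h3 (xg_Z3 m), fun s hs => cm_eq_one.1 (eq_one (cm_E1Z3 (hE s hs) (xg_Z3 m)) ?_)⟩)
    fun m hm hX => ?_
  · exact hb (by simpa [xg_h] using (cen1 h k hm).2.2.2.2.2.2.2.1)
  · obtain ⟨t, ht, rfl⟩ := hγ.1.sur s hs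
    rw [← hγ.1.mul _ ht _ hc.1, hc.2 t ht, hγ.1.mul _ hc.1 _ ht]
  · have e := (cen1 h hs hm).2.2.2.2.1
    obtain ⟨p0, p1, p2, p3, p4, p5, p6⟩ := xg_Z3 m
    simp only [cm_e, hE s hs, hE m (h.ME hm)] at e
    rw [cm_j, p0, p1, p2, p3, p4, p5, p6, xg_h, xg_i (hE m (h.ME hm)), hE s hs]
    linear_combination -e
  · have a0 := hE m (h.ME hm)
    have e1 := congrArg Co.j (cm_eq_one.2 (hX.2 (xi 1) (h3 ⟨rfl, rfl, rfl, rfl, rfl, rfl, rfl⟩)))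
    have e2 := congrArg Co.j (cm_eq_one.2 (hX.2 (xh 1) (h3 ⟨rfl, rfl, rfl, rfl, rfl, rfl, rfl⟩)))
    simp [cm_j, xi, xh, a0] at e1 e2
    obtain ⟨p0, p1, p2, p3, p4, p5, p6⟩ := xg_Z3 m
    exact ⟨p0, p1, p2, p3, p4, p5, p6, by simp [xg_h, e1], by simp [xg_i a0, e2]⟩

theorem le_C4 (h : Bq 3 zA 1 E M) (hs : s ∈ E) (hb : s.b ≠ 0) : M ≤ sC4 := h.gen_le fun β hβ u hu hm => by
  have p0 : (β u).b = 0 := le_E2 h hm
  have p1 : (β u).a = 0 := by simpa [cm_d, p0, hb] using (cen1 h hs hm).2.2.1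
  have p2 : (β u).d = 0 := by simpa [cm_e, p0, p1, hb] using (cen1 h hs hm).2.2.2.2.1
  exact ⟨p0, p1, p2, by simpa [cb_j, p0, p1, p2] using congrArg Co.j (cube h hβ hu)⟩

theorem le_D2 (h : Bq 3 zA 1 E M) (hs : s ∈ E) (hb : s.b ≠ 0) : M ≤ sD2 := h.gen_le fun β hβ u hu hm => by
  have hM := le_C4 h hs hb
  obtain ⟨p0, p1, p2, p3⟩ := hM hm
  refine ⟨p0, p1, p2, by_contra fun hc => ?_, p3⟩
  have hi : u.i ≠ 0 := fun hi => by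
    obtain ⟨q0, q1, q2, q3, q4, q5, q6, q7⟩ : u ∈ sZ2 := hu
    exact hc (hβ.2 1 le_rfl u ⟨q0, q1, q2, q3, q4, q5, q6, q7, hi⟩).2.2.2.1
  have h4 : sC4 ≤ E := fun s hs => (h.cen s).2 fun m hm => cm_C4C4 hs (hM hm)
  have hE : ∀ t ∈ E, t.b = 0 → t ∈ sC4 := fun t ht tb => by
    obtain ⟨-, -, -, -, -, e1, e2, e3, -⟩ := cen1 h ht hm
    have a0 : t.a = 0 := by simpa [cm_f, tb, p0, p1, hc] using e1
    exact ⟨tb, a0, by simpa [cm_g, tb, a0, p0, p1, p2, p3, hc] using e2,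
      by simpa [cm_h, tb, a0, p0, p1, p2, p3, hc] using e3⟩
  have key : ∀ p ∈ E, cm p (β u) = 1 → ∃ p' ∈ sC4, β p' = p := fun r hr e => by
    obtain ⟨p, hp, rfl⟩ := hβ.1.sur r hr
    rw [← hβ.1.cm hp (Z2_E h hu)] at e
    have e1 := congrArg Co.j (hβ.1.inj _ (cm_mem hp (Z2_E h hu)) e)
    obtain ⟨q0, q1, q2, q3, q4, q5, q6, q7⟩ : u ∈ sZ2 := hu
    exact ⟨p, hE p hp (by simpa [cm_j, q0, q1, q2, q3, q4, q5, q6, q7, hi] using e1), rfl⟩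
  have m1 : ∀ k, xf k ∈ sC4 := fun _ => ⟨rfl, rfl, rfl, rfl⟩
  have m2 : xg 1 ∈ sC4 := ⟨rfl, rfl, rfl, rfl⟩
  obtain ⟨k, hk⟩ : ∃ k, (cm s (β u)).j = k * (β u).c := ⟨_, (div_mul_cancel₀ _ hc).symm⟩
  obtain ⟨p, hp, e1⟩ := key _ (h4 m2) (eq_one (cm_C4C4 m2 (hM hm)) (by simp [cm_j, xg, p0, p1, p3]))
  obtain ⟨q, hq, e2⟩ := key _ (mul_mem hs (h4 (m1 k))) (eq_one (cen1 h (mul_mem hs (h4 (m1 k))) hm) (by
    have z1 := cm_C4C4 (m1 k) (hM hm)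
    have e : cm (s * xf k) (β u) = cm s (β u) * (s * cm (xf k) (β u) * s⁻¹) := by simp only [cm]; group
    have e' : (cm (xf k) (β u)).j = -(k * (β u).c) := by simp [cm_j, xf, p0]
    obtain ⟨q0, q1, q2, q3, q4, q5, q6, q7, q8⟩ := cen1 h hs hm
    rw [e, conj_eq_cm, cm_Z1 s z1, mul_one]
    obtain ⟨r0, r1, r2, r3, r4, r5, r6, r7, r8⟩ := z1
    simp [q0, q1, q2, q3, q4, q5, q6, q7, q8, r0, r1, r2, r3, r4, r5, r6, r7, r8, hk, e']))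
  have e3 := (hβ.2 1 le_rfl _ (cm_C4C4 hp hq)).2.2.2.2.2.2.2.1
  rw [hβ.1.cm (h4 hp) (h4 hq), e1, e2, xg_h] at e3
  exact hb (by simpa [xf] using e3)

theorem jobL1 : JobL1 := by
  intro E M h hE
  obtain ⟨s, hs, hb⟩ := SetLike.not_le_iff_exists.1 hE
  have hb : s.b ≠ 0 := hb
  have hM : M ≤ sZ3 := fun m hm => by
    obtain ⟨p0, p1, p2, p3, p4⟩ := le_D2 h hs hb hm
    obtain ⟨-, -, -, -, -, -, e1, e2, -⟩ := cen1 h hs hm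
    have p5 : m.f = 0 := by simpa [cm_g, p0, p1, p2, p3, p4, hb] using e1
    exact ⟨p0, p1, p2, p3, p4, p5, by simpa [cm_h, p0, p1, p2, p3, p4, p5, hb] using e2⟩
  refine le_antisymm (fun t ht => ?_) fun t ht => (h.cen t).2 fun m hm => cm_E1Z3 ht (hM hm)
  obtain ⟨m, hm, hm'⟩ := SetLike.not_le_iff_exists.1 (h.not_le (X := sZ2) fun c hc s => cm_Z2 s hc)
  obtain ⟨p0, p1, p2, p3, p4, p5, p6⟩ := hM hm
  have p7 : m.h ≠ 0 := fun p7 => hm' ⟨p0, p1, p2, p3, p4, p5, p6, p7⟩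
  simpa [mem_sE1, cm_i, p0, p1, p2, p3, p4, p5, p6, p7] using (cen1 h ht hm).2.2.2.2.2.2.2.2

end H18.T3L1
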