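/- T3 tower (row S5228), slot L43. -/
import Cfsg.Agent.H11.T3Spec

set_option autoImplicit false
set_option linter.unusedSectionVars false
set_option linter.unusedSimpArgs false
set_option linter.unusedVariables false
set_option linter.unnecessarySeqFocus false

open Subgroup H11.T3 H11.T3.Co
open H90.RF (cm Au Pr Ok)
open H90.U5 (Bq)

namespace H18.T3L43

variable {E M : Subgroup Co} {s m : Co} {β : Co → Co}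

theorem pr_bot (h : Au E β) : Pr β ⊥ := fun c hc => by rw [mem_bot.1 hc, h.one]; exact one_mem _

theorem cen_Z3 (h : ∀ y ∈ sZ3, cm s y ∈ (⊥ : Subgroup Co)) : s ∈ sC3 := by
  have e1 := mem_bot.1 (h (xi 1) ⟨rfl, rfl, rfl, rfl, rfl, rfl, rfl⟩)
  have e2 := mem_bot.1 (h (xh 1) ⟨rfl, rfl, rfl, rfl, rfl, rfl, rfl⟩)
  have a0 : s.a = 0 := by simpa [cm_i, xh] using congrArg Co.i e2
  exact ⟨by simpa [cm_j, xi] using congrArg Co.j e1, a0, by simpa [cm_j, xh, a0] using congrArg Co.j e2⟩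

theorem cen_Z4 (h : ∀ y ∈ sZ4, cm s y ∈ (⊥ : Subgroup Co)) : s ∈ sC4 := by
  obtain ⟨p0, p1, p2⟩ := cen_Z3 fun y hy => h y (Z3_le_Z4 hy)
  exact ⟨p0, p1, p2, by
    simpa [cm_j, xg, p0, p1, p2] using congrArg Co.j (mem_bot.1 (h (xg 1) ⟨rfl, rfl, rfl, rfl, rfl, rfl⟩))⟩

theorem cm_C4Z4 (hs : s ∈ sC4) (hm : m ∈ sZ4) : cm s m = 1 := by
  obtain ⟨p0, p1, p2, p3⟩ := hs
  obtain ⟨q0, q1, q2, q3, q4, q5⟩ := hm
  ext <;> simp [cm_b, cm_a, cm_d, cm_c, cm_e, cm_f, cm_g, cm_h, cm_i, cm_j, *]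

theorem cm_C3Z3 (hs : s ∈ sC3) (hm : m ∈ sZ3) : cm s m = 1 := by
  obtain ⟨p0, p1, p2⟩ := hs
  obtain ⟨q0, q1, q2, q3, q4, q5, q6⟩ := hm
  ext <;> simp [cm_b, cm_a, cm_d, cm_c, cm_e, cm_f, cm_g, cm_h, cm_i, cm_j, *]

theorem cm_C3Z4 (hs : s ∈ sC3) (hm : m ∈ sZ4) : cm s m ∈ sZ1 := by
  obtain ⟨p0, p1, p2⟩ := hs
  obtain ⟨q0, q1, q2, q3, q4, q5⟩ := hm
  simp [mem_sZ1, cm_b, cm_a, cm_d, cm_c, cm_e, cm_f, cm_g, cm_h, cm_i, *]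

theorem cm_C3C3 (hs : s ∈ sC3) (hm : m ∈ sC3) : cm s m ∈ sZ3 := by
  obtain ⟨p0, p1, p2⟩ := hs
  obtain ⟨q0, q1, q2⟩ := hm
  simp [mem_sZ3, cm_b, cm_a, cm_d, cm_c, cm_e, cm_f, cm_g, *]

theorem lev4 (h : Bq 3 zA 4 E M) : E = sE1 := by
  have hD : sD2 ≤ E := h.le.trans h.ME
  have hM : M ≤ sC4 := h.gen_le fun β hβ u hu _ => cen_Z4 (hβ.1.cm_mem (Z4_le_D2.trans hD) (hβ.2 4 le_rfl)
    (pr_bot hβ.1) (hD hu) fun y hy => mem_bot.2 (cm_C4Z4 (D2_le_C4 hu) hy))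
  refine le_antisymm (fun s hs => ?_) fun s hs => (h.cen s).2 fun m hm => ?_
  · obtain ⟨m, hm, hm'⟩ := SetLike.not_le_iff_exists.1 (h.not_le (X := sD2) fun c hc s => cm_D2 s hc)
    obtain ⟨p0, p1, p2, p3⟩ := hM hm
    have p4 : m.c ≠ 0 := fun p4 => hm' ⟨p0, p1, p2, p4, p3⟩
    simpa [mem_sE1, cm_f, p0, p1, p4] using ((h.cen s).1 hs m hm).2.2.2.2.2
  · obtain ⟨q0, q1, q2, q3, q4⟩ := cm_C4 s (hM hm)
    exact ⟨q0, q1, q2, q3, q4, by simp [cm_f, (hM hm).1, (hM hm).2.1, mem_sE1.1 hs]⟩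

theorem lev3 (h : Bq 3 zA 3 E M) : False := by
  have hZ : sZ4 ≤ E := h.le.trans h.ME
  have k : ∀ β, Ok zA 3 E β → ∀ u ∈ E, u ∈ sC3 → β u ∈ sC3 := fun β hβ u hu h3 =>
    cen_Z3 (hβ.1.cm_mem (Z3_le_Z4.trans hZ) (hβ.2 3 le_rfl) (pr_bot hβ.1) hu
      fun y hy => mem_bot.2 (cm_C3Z3 h3 hy))
  have Z4C : sZ4 ≤ sC3 := Z4_le_D2.trans (D2_le_C4.trans C4_le_C3)
  have hM : M ≤ sC3 := h.gen_le fun β hβ u hu _ => k β hβ u (hZ hu) (Z4C hu)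
  have hC : sC3 ≤ E := fun s hs => (h.cen s).2 fun m hm => cm_C3C3 hs (hM hm)
  refine h.not_le (X := sZ4) (fun c hc s => cm_Z4 s hc) (h.gen_le fun β hβ u hu _ => ?_)
  have e := hβ.1.cm_mem' hC (fun c hc => k β hβ c (hC hc) hc) (hβ.2 1 (by omega)) (hZ hu)
    fun y hy => cm_C3Z4 hy hu
  obtain ⟨p0, p1, p2⟩ := k β hβ u (hZ hu) (Z4C hu)
  obtain ⟨-, -, -, -, -, -, -, e1, -⟩ : _ ∈ sZ1 := e (xc 1) ⟨rfl, rfl, rfl⟩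
  obtain ⟨-, -, -, -, -, -, -, e2, e3⟩ : _ ∈ sZ1 := e (xe 1) ⟨rfl, rfl, rfl⟩
  exact ⟨p0, p1, p2, by simpa [cm_h, xe, p0, p2] using e2, by simpa [cm_h, xc, p1] using e1,
    by simpa [cm_i, xe, p0, p1] using e3⟩

theorem jobL43 : JobL43 := ⟨fun _ _ => lev4, fun _ _ => lev3⟩

end H18.T3L43
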